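import Mathlib
import Cfsg.Agent.Lib.Helper9.CS2
import Cfsg.Agent.Lib.Helper91.Hall

/-!
# Piece C1 of S4022: the case of a unique normal subgroup of prime order
-/

set_option autoImplicit false

namespace Cfsg.Agent.Lib.Helper51.EqC1

open Subgroup

universe u

theorem mem_map_conj {G : Type u} [Group G] (g x : G) (H : Subgroup G) :
    x ∈ H.map (MulAut.conj g).toMonoidHom ↔ g⁻¹ * x * g ∈ H := by
  constructor
  · rintro ⟨y, hy, rfl⟩
    have : g⁻¹ * ((MulAut.conj g).toMonoidHom y) * g = y := by
      simp [MulAut.conj_apply, mul_assoc]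
    rw [this]; exact hy
  · intro h
    refine ⟨g⁻¹ * x * g, h, ?_⟩
    simp [MulAut.conj_apply, mul_assoc]

theorem map_conj_mul {G : Type u} [Group G] (a b : G) (H : Subgroup G) :
    (H.map (MulAut.conj b).toMonoidHom).map (MulAut.conj a).toMonoidHom =
      H.map (MulAut.conj (a * b)).toMonoidHom := by
  ext x
  rw [mem_map_conj, mem_map_conj, mem_map_conj]
  have : b⁻¹ * (a⁻¹ * x * a) * b = (a * b)⁻¹ * x * (a * b) := by group
  rw [this]

theorem card_map_conj {G : Type u} [Group G] (g : G) (H : Subgroup G) :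
    Nat.card (H.map (MulAut.conj g).toMonoidHom) = Nat.card H :=
  Subgroup.card_map_of_injective (MulAut.conj g).injective

/-- image in the quotient of a subgroup meeting `N` trivially has the same order -/
theorem card_map_mk_of_inf_eq_bot {G : Type u} [Group G] [Finite G] (N : Subgroup G) [N.Normal]
    (H : Subgroup G) (h : H ⊓ N = ⊥) :
    Nat.card (H.map (QuotientGroup.mk' N)) = Nat.card H := by
  have hinj : Function.Injective ((QuotientGroup.mk' N).subgroupMap H) := by
    rw [injective_iff_map_eq_one]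
    intro a ha
    have h1 : (QuotientGroup.mk' N) (a : G) = 1 := by
      have := congrArg Subtype.val ha
      simpa using this
    have h2 : (a : G) ∈ N := by
      rwa [← QuotientGroup.ker_mk' N, MonoidHom.mem_ker]
    have h3 : (a : G) ∈ H ⊓ N := ⟨a.2, h2⟩
    rw [h] at h3
    exact Subtype.ext (by simpa using h3)
  exact (Nat.card_eq_of_bijective _
    ⟨hinj, (QuotientGroup.mk' N).subgroupMap_surjective H⟩).symm

theorem case_one {G : Type u} [Group G] [Finite G] {q : ℕ} [Fact q.Prime] (N : Subgroup G)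
    [N.Normal] (hN : Nat.card N = q) (huniq : ∀ U : Subgroup G, Nat.card U = q → U = N)
    (hquot : ∀ H K : Subgroup (G ⧸ N), Nat.card H = Nat.card K →
      ∃ g : G ⧸ N, K = H.map (MulAut.conj g).toMonoidHom)
    (H K : Subgroup G) (hHK : Nat.card H = Nat.card K) :
    ∃ g : G, K = H.map (MulAut.conj g).toMonoidHom := by
  have hq : q.Prime := Fact.out
  -- the images of conjugates
  have hmapconj : ∀ (g : G) (L : Subgroup G),
      (L.map (MulAut.conj g).toMonoidHom).map (QuotientGroup.mk' N) =
        (L.map (QuotientGroup.mk' N)).map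
          (MulAut.conj ((QuotientGroup.mk' N) g)).toMonoidHom := by
    intro g L
    rw [Subgroup.map_map, Subgroup.map_map]
    congr 1
  have hle : ∀ L : Subgroup G, q ∣ Nat.card L → N ≤ L := by
    intro L hL
    obtain ⟨x, hx⟩ := exists_prime_orderOf_dvd_card' q hL
    have h1 : Nat.card (zpowers (x : G)) = q := by
      rw [Nat.card_zpowers, Subgroup.orderOf_coe, hx]
    rw [← huniq _ h1]
    exact zpowers_le.2 x.2
  by_cases hdiv : q ∣ Nat.card H
  · have hNH : N ≤ H := hle H hdiv
    have hNK : N ≤ K := hle K (hHK ▸ hdiv)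
    have hcH : Nat.card (H.map (QuotientGroup.mk' N)) * Nat.card N = Nat.card H := by
      rw [← Cfsg.Agent.Lib.Helper91.Hall.card_comap_mk, Subgroup.comap_map_eq,
        QuotientGroup.ker_mk', sup_eq_left.mpr hNH]
    have hcK : Nat.card (K.map (QuotientGroup.mk' N)) * Nat.card N = Nat.card K := by
      rw [← Cfsg.Agent.Lib.Helper91.Hall.card_comap_mk, Subgroup.comap_map_eq,
        QuotientGroup.ker_mk', sup_eq_left.mpr hNK]
    have hNpos : 0 < Nat.card N := Nat.card_pos
    have hc : Nat.card (H.map (QuotientGroup.mk' N)) = Nat.card (K.map (QuotientGroup.mk' N)) := by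
      apply Nat.eq_of_mul_eq_mul_right hNpos
      rw [hcH, hcK, hHK]
    obtain ⟨gb, hgb⟩ := hquot _ _ hc
    obtain ⟨g, rfl⟩ := QuotientGroup.mk'_surjective N gb
    refine ⟨g, ?_⟩
    rw [← hmapconj] at hgb
    have hNg : N ≤ H.map (MulAut.conj g).toMonoidHom := by
      intro x hx
      rw [mem_map_conj]
      apply hNH
      have := ‹N.Normal›.conj_mem x hx g⁻¹
      simpa using this
    ext x
    rw [← Cfsg.Agent.Lib.Helper91.Hall.mk_mem_map_iff N K hNK x, hgb,
      Cfsg.Agent.Lib.Helper91.Hall.mk_mem_map_iff N _ hNg x]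
  · have hcop : ∀ L : Subgroup G, Nat.card L = Nat.card H → L ⊓ N = ⊥ := by
      intro L hL
      have h1 : Nat.card (L ⊓ N : Subgroup G) ∣ Nat.card L := Subgroup.card_dvd_of_le inf_le_left
      have h2 : Nat.card (L ⊓ N : Subgroup G) ∣ q := hN ▸ Subgroup.card_dvd_of_le inf_le_right
      rcases (Nat.dvd_prime hq).1 h2 with h3 | h3
      · exact Subgroup.card_eq_one.1 h3
      · exfalso; apply hdiv; rw [← hL, ← h3]; exact h1
    have hHN := hcop H rfl
    have hKN := hcop K hHK.symm
    have hc : Nat.card (H.map (QuotientGroup.mk' N)) = Nat.card (K.map (QuotientGroup.mk' N)) := by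
      rw [card_map_mk_of_inf_eq_bot N H hHN, card_map_mk_of_inf_eq_bot N K hKN, hHK]
    obtain ⟨gb, hgb⟩ := hquot _ _ hc
    obtain ⟨g, rfl⟩ := QuotientGroup.mk'_surjective N gb
    rw [← hmapconj] at hgb
    -- the two complements
    have hsup : H.map (MulAut.conj g).toMonoidHom ⊔ N = K ⊔ N := by
      have h1 := congrArg (Subgroup.comap (QuotientGroup.mk' N)) hgb
      rw [Subgroup.comap_map_eq, Subgroup.comap_map_eq, QuotientGroup.ker_mk'] at h1
      exact h1.symm
    have hcyc : IsCyclic N := isCyclic_of_prime_card hN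
    have hNc : IsMulCommutative N := by
      refine ⟨⟨fun a b => ?_⟩⟩
      obtain ⟨c, hc⟩ := hcyc.exists_generator
      obtain ⟨i, rfl⟩ := Subgroup.mem_zpowers_iff.1 (hc a)
      obtain ⟨j, rfl⟩ := Subgroup.mem_zpowers_iff.1 (hc b)
      exact (Commute.zpow_zpow_self c i j).eq
    have hc1 : (Nat.card (H.map (MulAut.conj g).toMonoidHom)).Coprime (Nat.card N) := by
      rw [card_map_conj, hN]
      exact ((Nat.Prime.coprime_iff_not_dvd hq).2 hdiv).symm
    have hc2 : (Nat.card K).Coprime (Nat.card N) := by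
      rw [← hHK, hN]
      exact ((Nat.Prime.coprime_iff_not_dvd hq).2 hdiv).symm
    obtain ⟨n, -, hn⟩ := Cfsg.Agent.Lib.Helper9.CS2.conj_of_sup_eq N _ K hsup hc1 hc2
    refine ⟨n * g, ?_⟩
    rw [hn, map_conj_mul]

end Cfsg.Agent.Lib.Helper51.EqC1
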