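import Mathlib
import Cfsg.Agent.Lib.Helper51.EqC1
import Cfsg.Agent.Lib.Helper91.Hall
import Cfsg.Agent.Lib.Helper2.Split

/-!
# Piece C2 of S4022: the case of a normal abelian Sylow subgroup
-/

set_option autoImplicit false

namespace Cfsg.Agent.Lib.Helper51.EqC2

open Subgroup Cfsg.Agent.Lib.Helper51.EqC1

open scoped Pointwise

universe u

theorem smul_eq_map {G : Type u} [Group G] (g : G) (H : Subgroup G) :
    MulAut.conj g • H = H.map (MulAut.conj g).toMonoidHom := by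
  ext x
  rw [Cfsg.Agent.Lib.Helper91.Hall.mem_conj_smul, mem_map_conj]

/-- Hall containment inside a subgroup. -/
theorem hall_contain_sub {G : Type u} [Group G] [Finite G] [Group.IsSolvable G] (X : Subgroup G)
    (m n : ℕ) (hX : Nat.card X = m * n) (hmn : m.Coprime n) (P : Subgroup G) (hPX : P ≤ X)
    (hP : (Nat.card P).Coprime n) : ∃ Y : Subgroup G, Y ≤ X ∧ Nat.card Y = m ∧ P ≤ Y := by
  obtain ⟨Y', hY', hPY'⟩ := Cfsg.Agent.Lib.Helper91.Hall.hall_contain (G := ↥X) m n hX hmn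
    (P.subgroupOf X)
    (by rw [Cfsg.Agent.Lib.Helper91.Hall.card_subgroupOf_of_le _ _ hPX]; exact hP)
  refine ⟨Y'.map X.subtype, Subgroup.map_subtype_le Y', ?_, ?_⟩
  · rw [Subgroup.card_subtype]; exact hY'
  · intro y hy
    exact ⟨⟨y, hPX hy⟩, hPY' (Subgroup.mem_subgroupOf.mpr hy), rfl⟩

/-- Hall conjugacy inside a subgroup. -/
theorem hall_conj_sub {G : Type u} [Group G] [Finite G] [Group.IsSolvable G] (X : Subgroup G)
    (m n : ℕ) (hX : Nat.card X = m * n) (hmn : m.Coprime n) (Y₁ Y₂ : Subgroup G) (h₁ : Y₁ ≤ X)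
    (h₂ : Y₂ ≤ X) (hc₁ : Nat.card Y₁ = m) (hc₂ : Nat.card Y₂ = m) :
    ∃ x ∈ X, Y₂ = Y₁.map (MulAut.conj x).toMonoidHom := by
  obtain ⟨g, hg⟩ := Cfsg.Agent.Lib.Helper91.Hall.hall_conj (G := ↥X) m n hX hmn
    (Y₁.subgroupOf X) (Y₂.subgroupOf X)
    (by rw [Cfsg.Agent.Lib.Helper91.Hall.card_subgroupOf_of_le _ _ h₁]; exact hc₁)
    (by rw [Cfsg.Agent.Lib.Helper91.Hall.card_subgroupOf_of_le _ _ h₂]; exact hc₂)
  have h := Cfsg.Agent.Lib.Helper91.Hall.conj_of_subgroupOf X Y₁ Y₂ h₁ h₂ g hg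
  exact ⟨g, g.2, by rw [← h, smul_eq_map]⟩

/-- the conjugacy hypothesis, read inside `G`. -/
theorem conj_in_sub {G : Type u} [Group G] (Y : Subgroup G)
    (hZ : ∀ H K : Subgroup Y, Nat.card H = Nat.card K →
      ∃ g : Y, K = H.map (MulAut.conj g).toMonoidHom)
    (A B : Subgroup G) (hA : A ≤ Y) (hB : B ≤ Y) (hAB : Nat.card A = Nat.card B) :
    ∃ y ∈ Y, B = A.map (MulAut.conj y).toMonoidHom := by
  obtain ⟨g, hg⟩ := hZ (A.subgroupOf Y) (B.subgroupOf Y)
    (by rw [Cfsg.Agent.Lib.Helper91.Hall.card_subgroupOf_of_le _ _ hA,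
      Cfsg.Agent.Lib.Helper91.Hall.card_subgroupOf_of_le _ _ hB]; exact hAB)
  have h := Cfsg.Agent.Lib.Helper91.Hall.conj_of_subgroupOf Y A B hA hB g
    (by rw [smul_eq_map]; exact hg.symm)
  exact ⟨g, g.2, by rw [← h, smul_eq_map]⟩

theorem card_mul_relIndex' {G : Type u} [Group G] (A H : Subgroup G) (h : A ≤ H) :
    Nat.card A * A.relIndex H = Nat.card H := by
  have h2 := Subgroup.relIndex_mul_relIndex (⊥ : Subgroup G) A H bot_le h
  rw [Subgroup.relIndex_bot_left, Subgroup.relIndex_bot_left] at h2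
  exact h2

theorem case_two {G : Type u} [Group G] [Finite G] [Group.IsSolvable G] {r : ℕ} [Fact r.Prime]
    (R : Subgroup G) [R.Normal] (hR : IsPGroup r R) (hRidx : ¬ r ∣ R.index)
    (hRc : ∀ x ∈ R, ∀ y ∈ R, x * y = y * x)
    (hZ : ∀ Y : Subgroup G, (Nat.card Y).Coprime r → ∀ H K : Subgroup Y,
      Nat.card H = Nat.card K → ∃ g : Y, K = H.map (MulAut.conj g).toMonoidHom)
    (H K : Subgroup G) (hA : H ⊓ R = K ⊓ R) (hHK : Nat.card H = Nat.card K) :
    ∃ g : G, K = H.map (MulAut.conj g).toMonoidHom := by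
  have hr : r.Prime := Fact.out
  set A : Subgroup G := H ⊓ R with hAdef
  -- `A` is normalized by `H` and `K`
  have hnorm : ∀ L : Subgroup G, L ⊓ R = A → L ≤ normalizer (A : Set G) := by
    intro L hL g hg
    rw [mem_normalizer_iff]
    intro x
    rw [← hL]
    constructor
    · rintro ⟨h1, h2⟩
      exact ⟨L.mul_mem (L.mul_mem hg h1) (L.inv_mem hg), ‹R.Normal›.conj_mem x h2 g⟩
    · rintro ⟨h1, h2⟩
      refine ⟨?_, ?_⟩
      · have := L.mul_mem (L.mul_mem (L.inv_mem hg) h1) hg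
        have e : g⁻¹ * (g * x * g⁻¹) * g = x := by group
        rwa [e] at this
      · have := ‹R.Normal›.conj_mem _ h2 g⁻¹
        have e : g⁻¹ * (g * x * g⁻¹) * g⁻¹⁻¹ = x := by group
        rwa [e] at this
  have hHn := hnorm H rfl
  have hKn := hnorm K hA.symm
  have hAH : A ≤ H := inf_le_left
  have hAK : A ≤ K := hA ▸ (inf_le_left : K ⊓ R ≤ K)
  have hApg : IsPGroup r A := hR.to_le inf_le_right
  obtain ⟨j, hj⟩ := IsPGroup.iff_card.mp hApg
  -- coprimality of the index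
  have hrel : ∀ L : Subgroup G, L ⊓ R = A → ¬ r ∣ A.relIndex L := by
    intro L hL hdiv
    apply hRidx
    rw [← hL, Subgroup.inf_relIndex_left] at hdiv
    exact dvd_trans hdiv (Subgroup.relIndex_dvd_index_of_normal R L)
  have hcopA : ∀ L : Subgroup G, L ⊓ R = A → (Nat.card A).Coprime (A.relIndex L) := by
    intro L hL
    rw [hj]
    exact Nat.Coprime.pow_left _ ((Nat.Prime.coprime_iff_not_dvd hr).2 (hrel L hL))
  obtain ⟨H₁, hH₁H, -, hH₁sup, hH₁card⟩ :=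
    Cfsg.Agent.Lib.Helper2.Split.exists_compl A H hAH hHn (hcopA H rfl)
  obtain ⟨K₁, hK₁K, -, hK₁sup, hK₁card⟩ :=
    Cfsg.Agent.Lib.Helper2.Split.exists_compl A K hAK hKn (hcopA K hA.symm)
  have hApos : 0 < Nat.card A := Nat.card_pos
  have hH₁rel : Nat.card H₁ = A.relIndex H := by
    apply Nat.eq_of_mul_eq_mul_left hApos
    rw [hH₁card, card_mul_relIndex' A H hAH]
  have hK₁rel : Nat.card K₁ = A.relIndex K := by
    apply Nat.eq_of_mul_eq_mul_left hApos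
    rw [hK₁card, card_mul_relIndex' A K hAK]
  have hH₁K₁ : Nat.card H₁ = Nat.card K₁ := by
    apply Nat.eq_of_mul_eq_mul_left hApos
    rw [hH₁card, hK₁card, hHK]
  have hH₁cop : (Nat.card H₁).Coprime r := by
    rw [hH₁rel]
    exact ((Nat.Prime.coprime_iff_not_dvd hr).2 (hrel H rfl)).symm
  have hK₁cop : (Nat.card K₁).Coprime r := by
    rw [← hH₁K₁]; exact hH₁cop
  -- the normalizer of `A`
  set X : Subgroup G := normalizer (A : Set G) with hXdef
  set m : ℕ := Nat.card X / r ^ (Nat.card X).factorization r with hm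
  set n : ℕ := r ^ (Nat.card X).factorization r with hn
  have hXpos : Nat.card X ≠ 0 := Nat.card_pos.ne'
  have hXmn : Nat.card X = m * n := by
    rw [mul_comm]; exact (Nat.ordProj_mul_ordCompl_eq_self (Nat.card X) r).symm
  have hmr : m.Coprime r := (Nat.coprime_ordCompl hr hXpos).symm
  have hmn : m.Coprime n := Nat.Coprime.pow_right _ hmr
  obtain ⟨Y₁, hY₁X, hY₁c, hH₁Y₁⟩ := hall_contain_sub X m n hXmn hmn H₁ (hH₁H.trans hHn)
    (Nat.Coprime.pow_right _ hH₁cop)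
  obtain ⟨Y₂, hY₂X, hY₂c, hK₁Y₂⟩ := hall_contain_sub X m n hXmn hmn K₁ (hK₁K.trans hKn)
    (Nat.Coprime.pow_right _ hK₁cop)
  obtain ⟨x, hxX, hx⟩ := hall_conj_sub X m n hXmn hmn Y₁ Y₂ hY₁X hY₂X hY₁c hY₂c
  have hH₁x : H₁.map (MulAut.conj x).toMonoidHom ≤ Y₂ := by
    rw [hx]; exact Subgroup.map_mono hH₁Y₁
  obtain ⟨y, hyY, hy⟩ := conj_in_sub Y₂ (hZ Y₂ (by rw [hY₂c]; exact hmr))
    (H₁.map (MulAut.conj x).toMonoidHom) K₁ hH₁x hK₁Y₂ (by rw [card_map_conj]; exact hH₁K₁)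
  rw [map_conj_mul] at hy
  have hgX : y * x ∈ X := X.mul_mem (hY₂X hyY) hxX
  have hAg : A.map (MulAut.conj (y * x)).toMonoidHom = A := by
    ext z
    rw [mem_map_conj]
    have h1 := (mem_normalizer_iff.1 (X.inv_mem hgX)) z
    rw [inv_inv] at h1
    exact h1.symm
  refine ⟨y * x, ?_⟩
  rw [← hH₁sup, Subgroup.map_sup, hAg, ← hy, hK₁sup]

end Cfsg.Agent.Lib.Helper51.EqC2
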