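import Mathlib
import Cfsg.Agent.Lib.Helper32.D8Stmt
import Cfsg.Agent.Lib.Helper26.GenChar

/-!
# S3716, piece CASE1 (second seat)

No fusion: from COMMONNEG and PAIR, a nontrivial linear character exists.
-/

set_option autoImplicit false

namespace Cfsg.Agent.Lib.Helper51.D8CASE1

open Cfsg Cfsg.Agent.Lib.Helper32 Cfsg.Agent.Lib.Helper32.D8Stmt

universe u

theorem bb_sub {G : Type u} [Group G] [Fintype G] (Θ Θ' : G → ℂ) (u v : G) :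
    bb (Θ - Θ') u v = bb Θ u v - bb Θ' u v := by
  unfold bb
  simp only [Pi.sub_apply, Finset.sum_sub_distrib, mul_sub]

theorem card_ne_zero' {G : Type u} [Group G] [Fintype G] : (Nat.card G : ℂ) ≠ 0 := by
  have : Nat.card G ≠ 0 := Nat.card_pos.ne'
  exact_mod_cast this

/-- The algebraic core: the two PAIR relations force `σ * U 1 = -1`. -/
theorem alg_core (n ca cw σ d pa pw : ℂ) (hn : n ≠ 0) (hca : ca ≠ 0) (hcw : cw ≠ 0)
    (P1 : (1 * 1) * (σ * d) *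
        ((cw ^ 2 / n - cw ^ 2 / (2 * n)) * pa ^ 2
          - 2 * (0 - 0) * pa * pw
          + (ca ^ 2 / (2 * n) - ca ^ 2 / n) * pw ^ 2) =
      (1 * 1 + σ * d) * ((ca ^ 2 / (2 * n) - ca ^ 2 / n) * (cw ^ 2 / n - cw ^ 2 / (2 * n))
        - (0 - 0) ^ 2))
    (P2 : (-1 * 1) * (-σ * d) *
        ((cw ^ 2 / n - cw ^ 2 / (2 * n)) * pa ^ 2
          - 2 * (0 - 0) * pa * pw
          + (ca ^ 2 / (2 * n) - ca ^ 2 / n) * pw ^ 2) =
      (-1 * 1 + -σ * d) * ((ca ^ 2 / (2 * n) - ca ^ 2 / n) * (cw ^ 2 / n - cw ^ 2 / (2 * n))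
        - (0 - 0) ^ 2)) :
    σ * d = -1 := by
  have hD : (ca ^ 2 / (2 * n) - ca ^ 2 / n) * (cw ^ 2 / n - cw ^ 2 / (2 * n)) - (0 - 0) ^ 2
      = -(ca ^ 2 * cw ^ 2 / (4 * n ^ 2)) := by
    field_simp
    ring
  have hD0 : -(ca ^ 2 * cw ^ 2 / (4 * n ^ 2)) ≠ 0 := by
    apply neg_ne_zero.mpr
    apply div_ne_zero
    · exact mul_ne_zero (pow_ne_zero 2 hca) (pow_ne_zero 2 hcw)
    · exact mul_ne_zero (by norm_num) (pow_ne_zero 2 hn)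
  rw [hD] at P1 P2
  have h : (1 + σ * d) * (-(ca ^ 2 * cw ^ 2 / (4 * n ^ 2))) = 0 := by
    linear_combination (-(1 : ℂ) / 2) * P1 + (1 / 2 : ℂ) * P2
  rcases mul_eq_zero.mp h with h | h
  · linear_combination h
  · exact absurd h hD0

theorem main (hCN : D8Stmt.COMMONNEG.{u}) (hPAIR : D8Stmt.PAIR.{u}) : D8Stmt.CASE1.{u} := by
  intro G _ _ Θ1 Θ2 Θ3 Θ4 a w ca cw hB hca hcw hT
  obtain ⟨⟨h1aa, h1aw, h1ww⟩, ⟨h2aa, h2aw, h2ww⟩, ⟨h3aa, h3aw, h3ww⟩, ⟨h4aa, h4aw, h4ww⟩⟩ := hT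
  have hn : (Nat.card G : ℂ) ≠ 0 := card_ne_zero'
  have g1 : IsGeneralizedCharacter G (Θ1 - Θ4) :=
    Cfsg.Agent.Lib.Helper26.GenChar.isGeneralizedCharacter_sub hB.g1 hB.g4
  have g2 : IsGeneralizedCharacter G (Θ2 - Θ3) :=
    Cfsg.Agent.Lib.Helper26.GenChar.isGeneralizedCharacter_sub hB.g2 hB.g3
  have o1 : (Θ1 - Θ4) 1 = 0 := by rw [Pi.sub_apply, hB.o1, hB.o4, sub_zero]
  have o2 : (Θ2 - Θ3) 1 = 0 := by rw [Pi.sub_apply, hB.o2, hB.o3, sub_zero]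
  have a1 : (Θ1 - Θ4) a = 0 := by rw [Pi.sub_apply, hB.a1, hB.a4, sub_zero]
  have a2 : (Θ2 - Θ3) a = 0 := by rw [Pi.sub_apply, hB.a2, hB.a3, sub_zero]
  have w1 : (Θ1 - Θ4) w = 0 := by rw [Pi.sub_apply, hB.w1, hB.w4, sub_zero]
  have w2 : (Θ2 - Θ3) w = 0 := by rw [Pi.sub_apply, hB.w2, hB.w3, sub_zero]
  have n1 : classInner (Θ1 - Θ4) (Θ1 - Θ4) = 4 := by
    rw [Cfsg.Agent.Lib.CT.Orth.classInner_sub_left, Cfsg.Agent.Lib.Helper26.GenChar.classInner_sub_right,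
      Cfsg.Agent.Lib.Helper26.GenChar.classInner_sub_right, hB.n11, hB.n14, hB.n41, hB.n44]
    norm_num
  have n2 : classInner (Θ2 - Θ3) (Θ2 - Θ3) = 4 := by
    rw [Cfsg.Agent.Lib.CT.Orth.classInner_sub_left, Cfsg.Agent.Lib.Helper26.GenChar.classInner_sub_right,
      Cfsg.Agent.Lib.Helper26.GenChar.classInner_sub_right, hB.n22, hB.n23, hB.n32, hB.n33]
    norm_num
  have t1 : classInner (Θ1 - Θ4) (triv G) = 1 := by
    rw [Cfsg.Agent.Lib.CT.Orth.classInner_sub_left, hB.t1, hB.t4]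
    norm_num
  have t2 : classInner (Θ2 - Θ3) (triv G) = -1 := by
    rw [Cfsg.Agent.Lib.CT.Orth.classInner_sub_left, hB.t2, hB.t3]
    norm_num
  have n12 : classInner (Θ1 - Θ4) (Θ2 - Θ3) = -2 := by
    rw [Cfsg.Agent.Lib.CT.Orth.classInner_sub_left, Cfsg.Agent.Lib.Helper26.GenChar.classInner_sub_right,
      Cfsg.Agent.Lib.Helper26.GenChar.classInner_sub_right, hB.n12, hB.n13, hB.n42, hB.n43]
    norm_num
  have htriv : IsIrrCharacter G (triv G) := Cfsg.Agent.Lib.CT.Ops.isIrrCharacter_one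
  -- the key relation for both sign patterns
  have key : ∀ (U : G → ℂ) (σ : ℂ), IsIrrCharacter G U → U ≠ triv G → (σ = 1 ∨ σ = -1) →
      classInner (Θ1 - Θ4) U = σ → classInner (Θ2 - Θ3) U = -σ → σ * U 1 = -1 := by
    intro U σ hU hUt hσ hc1 hc2
    have hσ' : (-σ = 1 ∨ -σ = -1) := by
      rcases hσ with h | h
      · right; rw [h]
      · left; rw [h]; norm_num
    have P1 := hPAIR (Θ1 - Θ4) (triv G) U 1 σ a w g1 o1 n1 a1 w1 htriv hU (Ne.symm hUt)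
      (Or.inl rfl) hσ t1 hc1
    have P2 := hPAIR (Θ2 - Θ3) (triv G) U (-1) (-σ) a w g2 o2 n2 a2 w2 htriv hU (Ne.symm hUt)
      (Or.inr rfl) hσ' t2 hc2
    rw [bb_sub, bb_sub, bb_sub, h1aa, h1aw, h1ww, h4aa, h4aw, h4ww] at P1
    rw [bb_sub, bb_sub, bb_sub, h2aa, h2aw, h2ww, h3aa, h3aw, h3ww] at P2
    simp only [D8Stmt.triv] at P1 P2
    exact alg_core (Nat.card G : ℂ) ca cw σ (U 1) (1 / 1 - U a / U 1) (1 / 1 - U w / U 1)
      hn hca hcw P1 P2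
  obtain ⟨U, hU, hUt, hcase⟩ := hCN (Θ1 - Θ4) (Θ2 - Θ3) g1 g2 o1 o2 n1 n2 t1 t2 n12
  obtain ⟨m, hm, hUm⟩ := Cfsg.Agent.Lib.CT.Wedderburn.irr_exists_apply_one_pos hU
  rcases hcase with ⟨hc1, hc2⟩ | ⟨hc1, hc2⟩
  · exfalso
    have h := key U 1 hU hUt (Or.inl rfl) hc1 hc2
    rw [one_mul, hUm] at h
    have h' : ((m : ℤ) : ℂ) = ((-1 : ℤ) : ℂ) := by push_cast; exact h
    have h'' : (m : ℤ) = -1 := by exact_mod_cast h'
    omega
  · have h := key U (-1) hU hUt (Or.inr rfl) hc1 (by rw [hc2]; norm_num)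
    exact ⟨U, hU, hUt, by linear_combination -h⟩

end Cfsg.Agent.Lib.Helper51.D8CASE1
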