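import Mathlib
import Cfsg.Agent.Lib.Helper64.AutStmt

/-!
# S4411 piece PGEN: a normal subgroup `D` of the `{p,q}`-group `Y` containing all `q`-elements
of `Y` satisfies `Y = D T`, `T` a Sylow `p`-subgroup of `Y`
-/

set_option autoImplicit false

namespace Cfsg.Agent.Lib.Helper51.AutPGEN

open Cfsg Cfsg.Agent.Lib.Helper64.AutStmt

universe u

theorem main : Cfsg.Agent.Lib.Helper64.AutStmt.PGen.{u} := by
  intro p q hp hq hpq Γ _ _ Y T D hPQ hSyl hDY hN hqD y hy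
  classical
  obtain ⟨hTY, hTcard⟩ := hSyl
  -- the subgroup `M = D T`
  let M : Subgroup Γ :=
    { carrier := {x | ∃ d ∈ D, ∃ t ∈ T, x = d * t}
      mul_mem' := by
        rintro _ _ ⟨d, hd, t, ht, rfl⟩ ⟨d', hd', t', ht', rfl⟩
        have h1 : t * d' * t⁻¹ ∈ D :=
          ((Subgroup.mem_normalizer_iff.mp (hN t (hTY ht))) d').mp hd'
        exact ⟨d * (t * d' * t⁻¹), mul_mem hd h1, t * t', mul_mem ht ht', by group⟩
      one_mem' := ⟨1, one_mem _, 1, one_mem _, by simp⟩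
      inv_mem' := by
        rintro _ ⟨d, hd, t, ht, rfl⟩
        have h1 : t⁻¹ * d⁻¹ * t⁻¹⁻¹ ∈ D :=
          ((Subgroup.mem_normalizer_iff.mp (hN t⁻¹ (hTY (inv_mem ht)))) d⁻¹).mp (inv_mem hd)
        exact ⟨t⁻¹ * d⁻¹ * t⁻¹⁻¹, h1, t⁻¹, inv_mem ht, by group⟩ }
  have hDM : D ≤ M := fun d hd => ⟨d, hd, 1, one_mem _, by simp⟩
  have hTM : T ≤ M := fun t ht => ⟨1, one_mem _, t, ht, by simp⟩
  have hMY : M ≤ Y := by
    rintro _ ⟨d, hd, t, ht, rfl⟩
    exact mul_mem (hDY hd) (hTY ht)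
  have hY0 : Nat.card Y ≠ 0 := Nat.card_pos.ne'
  let Q : Sylow q Y := default
  have hQcard : Nat.card (Q : Subgroup Y) = q ^ (Nat.card Y).factorization q :=
    Q.card_eq_multiplicity
  have hQD : (Q : Subgroup Y).map Y.subtype ≤ D := by
    rintro _ ⟨x, hx, rfl⟩
    apply hqD _ x.2
    obtain ⟨k, hk⟩ := Q.isPGroup' ⟨x, hx⟩
    refine ⟨k, ?_⟩
    have h1 := congrArg (fun z : (Q : Subgroup Y) => ((z : Y) : Γ)) hk
    simpa using h1
  have hQdvd : q ^ (Nat.card Y).factorization q ∣ Nat.card M := by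
    rw [← hQcard, ← Subgroup.card_map_of_injective Y.subtype_injective]
    exact Subgroup.card_dvd_of_le (hQD.trans hDM)
  have hTdvd : p ^ (Nat.card Y).factorization p ∣ Nat.card M := by
    rw [← hTcard]
    exact Subgroup.card_dvd_of_le hTM
  have hdvd : Nat.card Y ∣ Nat.card M := by
    rw [Nat.dvd_iff_prime_pow_dvd_dvd]
    intro s k hs hsk
    by_cases hk0 : k = 0
    · subst hk0
      simp
    have hsY : s ∣ Nat.card Y := dvd_trans (dvd_pow_self s hk0) hsk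
    have hle : k ≤ (Nat.card Y).factorization s := (hs.pow_dvd_iff_le_factorization hY0).mp hsk
    rcases hPQ s hs hsY with h | h
    · rw [h] at hle ⊢
      exact (pow_dvd_pow _ hle).trans hTdvd
    · rw [h] at hle ⊢
      exact (pow_dvd_pow _ hle).trans hQdvd
  have hMeq : M = Y := Subgroup.eq_of_le_of_card_ge hMY (Nat.le_of_dvd Nat.card_pos hdvd)
  have hyM : y ∈ M := hMeq ▸ hy
  exact hyM

end Cfsg.Agent.Lib.Helper51.AutPGEN
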