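import Mathlib
import Cfsg.Agent.Lib.Helper64.AutStmt

/-!
# S4411 piece QIN: a `q`-element of `C₀ T` (`T` a `p`-group normalizing `C₀`) lies in `C₀`
-/

set_option autoImplicit false

namespace Cfsg.Agent.Lib.Helper51.AutQIN

open Cfsg Cfsg.Agent.Lib.Helper64.AutStmt

universe u

theorem main : Cfsg.Agent.Lib.Helper64.AutStmt.QIn.{u} := by
  intro p q hp hq hpq Γ _ C₀ T c t hT hN hc ht hct
  obtain ⟨k, hk⟩ := hct
  obtain ⟨a, ha⟩ := hT ⟨t, ht⟩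
  have hta : t ^ (p ^ a) = 1 := congrArg Subtype.val ha
  set g := c * t with hg
  -- `(c t)^m ∈ C₀ t^m`
  have h1 : ∀ m : ℕ, g ^ m * (t ^ m)⁻¹ ∈ C₀ := by
    intro m
    induction m with
    | zero => simp
    | succ m ih =>
      have h2 : t ^ m * c * (t ^ m)⁻¹ ∈ C₀ :=
        ((Subgroup.mem_normalizer_iff.mp (hN (t ^ m) (pow_mem ht m))) c).mp hc
      have h3 : g ^ (m + 1) * (t ^ (m + 1))⁻¹ =
          (g ^ m * (t ^ m)⁻¹) * (t ^ m * c * (t ^ m)⁻¹) := by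
        rw [pow_succ, pow_succ, hg]
        group
      rw [h3]
      exact mul_mem ih h2
  have h2 : g ^ (p ^ a) ∈ C₀ := by
    have h3 := h1 (p ^ a)
    rwa [hta, inv_one, mul_one] at h3
  have hcop : Nat.Coprime (p ^ a) (q ^ k) :=
    Nat.Coprime.pow a k ((Nat.coprime_primes hp.out hq.out).mpr hpq)
  have hbez : (1 : ℤ) = ((p ^ a : ℕ) : ℤ) * Nat.gcdA (p ^ a) (q ^ k) +
      ((q ^ k : ℕ) : ℤ) * Nat.gcdB (p ^ a) (q ^ k) := by
    have h3 := Nat.gcd_eq_gcd_ab (p ^ a) (q ^ k)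
    rw [hcop] at h3
    simpa using h3
  have h3 : g = (g ^ (p ^ a)) ^ (Nat.gcdA (p ^ a) (q ^ k)) := by
    have h4 : g ^ (((p ^ a : ℕ) : ℤ) * Nat.gcdA (p ^ a) (q ^ k) +
        ((q ^ k : ℕ) : ℤ) * Nat.gcdB (p ^ a) (q ^ k)) = g := by
      rw [← hbez, zpow_one]
    rw [zpow_add, zpow_mul, zpow_mul, zpow_natCast, zpow_natCast, hk, one_zpow, mul_one] at h4
    exact h4.symm
  rw [h3]
  exact zpow_mem h2 _

end Cfsg.Agent.Lib.Helper51.AutQIN
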