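import Mathlib
import Cfsg.Agent.Lib.Helper64.AutStmt

/-!
# S4411 piece STAB: a `q`-element centralizing the `p`-group `L` and acting trivially on `H`
modulo `L` centralizes `H`
-/

set_option autoImplicit false

namespace Cfsg.Agent.Lib.Helper51.AutSTAB

open Cfsg Cfsg.Agent.Lib.Helper64.AutStmt

universe u

theorem main : Cfsg.Agent.Lib.Helper64.AutStmt.Stab.{u} := by
  intro p q hp hq hpq Γ _ H L y hL hy hyL hH
  obtain ⟨k, hk⟩ := hy
  rw [Subgroup.mem_centralizer_iff]
  intro h hh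
  set z := h⁻¹ * y * h * y⁻¹ with hz
  have hzL : z ∈ L := hH h hh
  have hyz : z * y = y * z := (Subgroup.mem_centralizer_iff.mp hyL) z hzL
  have h1 : y * h * y⁻¹ = h * z := by
    rw [hz]
    group
  have hyzj : ∀ j : ℕ, y * z ^ j * y⁻¹ = z ^ j := by
    intro j
    have h2 : Commute y (z ^ j) := (show Commute y z from hyz.symm).pow_right j
    rw [h2.eq]
    group
  have h2 : ∀ j : ℕ, y ^ j * h * (y ^ j)⁻¹ = h * z ^ j := by
    intro j
    induction j with
    | zero => simp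
    | succ j ih =>
      calc y ^ (j + 1) * h * (y ^ (j + 1))⁻¹ = y * (y ^ j * h * (y ^ j)⁻¹) * y⁻¹ := by
            rw [pow_succ']
            group
        _ = y * (h * z ^ j) * y⁻¹ := by rw [ih]
        _ = (y * h * y⁻¹) * (y * z ^ j * y⁻¹) := by group
        _ = h * z * z ^ j := by rw [h1, hyzj]
        _ = h * z ^ (j + 1) := by rw [pow_succ', mul_assoc]
  have h3 := h2 (q ^ k)
  rw [hk] at h3
  have h4 : z ^ (q ^ k) = 1 := by
    have h5 : h = h * z ^ (q ^ k) := by simpa using h3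
    exact (mul_eq_left.mp h5.symm)
  obtain ⟨m, hm⟩ := hL ⟨z, hzL⟩
  have h5 : z ^ (p ^ m) = 1 := congrArg Subtype.val hm
  have h6 : orderOf z ∣ Nat.gcd (q ^ k) (p ^ m) :=
    Nat.dvd_gcd (orderOf_dvd_of_pow_eq_one h4) (orderOf_dvd_of_pow_eq_one h5)
  have h7 : Nat.Coprime (q ^ k) (p ^ m) :=
    Nat.Coprime.pow k m ((Nat.coprime_primes hq.out hp.out).mpr (Ne.symm hpq))
  rw [h7] at h6
  have h8 : z = 1 := orderOf_eq_one_iff.mp (Nat.dvd_one.mp h6)
  rw [h8, mul_one] at h1
  calc h * y = (y * h * y⁻¹) * y := by rw [h1]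
    _ = y * h := by group

end Cfsg.Agent.Lib.Helper51.AutSTAB
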