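import Mathlib
import Cfsg.Agent.Lib.Helper64.AutStmt

/-!
# S4411 piece WCENT: a normal `q`-subgroup and a normal `p`-subgroup of `X` commute
-/

set_option autoImplicit false

namespace Cfsg.Agent.Lib.Helper51.AutWCENT

open Cfsg Cfsg.Agent.Lib.Helper64.AutStmt

universe u

theorem main : Cfsg.Agent.Lib.Helper64.AutStmt.WCent.{u} := by
  intro p q _ _ hpq Γ _ X W H hW hH hWX hHX hNW hNH w hw
  rw [Subgroup.mem_centralizer_iff]
  intro h hh
  have h1 : w * h * w⁻¹ * h⁻¹ ∈ W := by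
    have h2 : h * w⁻¹ * h⁻¹ ∈ W :=
      ((Subgroup.mem_normalizer_iff.mp (hNW h (hHX hh))) w⁻¹).mp (inv_mem hw)
    have h3 : w * h * w⁻¹ * h⁻¹ = w * (h * w⁻¹ * h⁻¹) := by group
    rw [h3]
    exact mul_mem hw h2
  have h2 : w * h * w⁻¹ * h⁻¹ ∈ H := by
    have h3 : w * h * w⁻¹ ∈ H :=
      ((Subgroup.mem_normalizer_iff.mp (hNH w (hWX hw))) h).mp hh
    exact mul_mem h3 (inv_mem hh)
  have hdisj : Disjoint W H := IsPGroup.disjoint_of_ne q p (Ne.symm hpq) W H hW hH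
  have h4 : w * h * w⁻¹ * h⁻¹ ∈ W ⊓ H := ⟨h1, h2⟩
  rw [hdisj.eq_bot, Subgroup.mem_bot] at h4
  have h5 : w * h = (w * h * w⁻¹ * h⁻¹) * (h * w) := by group
  rw [h5, h4, one_mul]

end Cfsg.Agent.Lib.Helper51.AutWCENT
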