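import Mathlib
import Cfsg.Prelude.Def_PLocal

/-! Conjugation invariance of best offenders. -/

set_option autoImplicit false
set_option linter.unusedSectionVars false
set_option linter.unusedVariables false
set_option linter.style.haveILetI false

namespace Cfsg.Agent.Lib.Helper51.BoConj

variable {G : Type*} [Group G]

theorem map_conj_eq_of_mem_normalizer {V : Subgroup G} {g : G}
    (hg : g ∈ Subgroup.normalizer (V : Set G)) :
    V.map (MulAut.conj g).toMonoidHom = V := by
  ext x
  constructor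
  · rintro ⟨v, hv, rfl⟩
    exact (Subgroup.mem_normalizer_iff.1 hg v).1 hv
  · intro hx
    refine ⟨g⁻¹ * x * g, ?_, ?_⟩
    · have := (Subgroup.mem_normalizer_iff.1 (Subgroup.inv_mem _ hg) x).1 hx
      simpa using this
    · simp [mul_assoc]

theorem map_conj_centralizer (B : Subgroup G) (g : G) :
    (Subgroup.centralizer (B : Set G)).map (MulAut.conj g).toMonoidHom =
      Subgroup.centralizer ((B.map (MulAut.conj g).toMonoidHom : Subgroup G) : Set G) := by
  ext x
  constructor
  · rintro ⟨c, hc, rfl⟩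
    rw [Subgroup.mem_centralizer_iff]
    rintro _ ⟨b, hb, rfl⟩
    have h := Subgroup.mem_centralizer_iff.1 hc b hb
    simp only [MulEquiv.coe_toMonoidHom, MulAut.conj_apply]
    calc g * b * g⁻¹ * (g * c * g⁻¹) = g * (b * c) * g⁻¹ := by group
      _ = g * (c * b) * g⁻¹ := by rw [h]
      _ = g * c * g⁻¹ * (g * b * g⁻¹) := by group
  · intro hx
    refine ⟨g⁻¹ * x * g, ?_, by simp [mul_assoc]⟩
    show g⁻¹ * x * g ∈ Subgroup.centralizer (B : Set G)
    rw [Subgroup.mem_centralizer_iff]
    intro b hb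
    have h := Subgroup.mem_centralizer_iff.1 hx (g * b * g⁻¹) ⟨b, hb, by simp⟩
    calc b * (g⁻¹ * x * g) = g⁻¹ * ((g * b * g⁻¹) * x) * g := by group
      _ = g⁻¹ * (x * (g * b * g⁻¹)) * g := by rw [h]
      _ = g⁻¹ * x * g * b := by group

theorem card_map_conj (B : Subgroup G) (g : G) :
    Nat.card ↥(B.map (MulAut.conj g).toMonoidHom) = Nat.card B :=
  Subgroup.card_map_of_injective (MulAut.conj g).injective

theorem card_inf_centralizer_conj {V : Subgroup G} {g : G}
    (hg : g ∈ Subgroup.normalizer (V : Set G)) (B : Subgroup G) :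
    Nat.card ↥(V ⊓ Subgroup.centralizer ((B.map (MulAut.conj g).toMonoidHom : Subgroup G) : Set G))
      = Nat.card ↥(V ⊓ Subgroup.centralizer (B : Set G)) := by
  have h1 : (V ⊓ Subgroup.centralizer (B : Set G)).map (MulAut.conj g).toMonoidHom =
      V ⊓ Subgroup.centralizer ((B.map (MulAut.conj g).toMonoidHom : Subgroup G) : Set G) := by
    rw [Subgroup.map_inf _ _ _ (MulAut.conj g).injective, map_conj_eq_of_mem_normalizer hg,
      map_conj_centralizer]
  rw [← h1, card_map_conj]

theorem map_conj_inv_map_conj (B : Subgroup G) (g : G) :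
    (B.map (MulAut.conj g⁻¹).toMonoidHom).map (MulAut.conj g).toMonoidHom = B := by
  ext x
  constructor
  · rintro ⟨_, ⟨b, hb, rfl⟩, rfl⟩
    simpa [mul_assoc] using hb
  · intro hx
    exact ⟨g⁻¹ * x * g, ⟨x, hx, by simp [mul_assoc]⟩, by simp [mul_assoc]⟩

/-- A conjugate of a best offender by an element normalizing `V` is a best offender. -/
theorem bo_conj {p : ℕ} {V A : Subgroup G} {g : G}
    (hg : g ∈ Subgroup.normalizer (V : Set G)) (hA : Cfsg.IsBestOffenderOn p V A) :
    Cfsg.IsBestOffenderOn p V (A.map (MulAut.conj g).toMonoidHom) := by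
  obtain ⟨h1, h2, h3⟩ := hA
  have hCn : (Subgroup.centralizer (V : Set G)).map (MulAut.conj g).toMonoidHom =
      Subgroup.centralizer (V : Set G) := by
    rw [map_conj_centralizer, map_conj_eq_of_mem_normalizer hg]
  refine ⟨?_, ?_, ?_⟩
  · intro B' hB'
    set B := B'.map (MulAut.conj g⁻¹).toMonoidHom with hB
    have hBB' : B.map (MulAut.conj g).toMonoidHom = B' := map_conj_inv_map_conj B' g
    have hBA : B ≤ A := by
      rintro _ ⟨b', hb', rfl⟩
      obtain ⟨a, ha, rfl⟩ := hB' hb'
      simpa [mul_assoc] using ha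
    have h4 := h1 B hBA
    have e1 : Nat.card B' = Nat.card B := by rw [← hBB', card_map_conj]
    have e2 : Nat.card ↥(V ⊓ Subgroup.centralizer (B' : Set G)) =
        Nat.card ↥(V ⊓ Subgroup.centralizer (B : Set G)) := by
      rw [← hBB', card_inf_centralizer_conj hg]
    rw [e1, e2, card_map_conj A g, card_inf_centralizer_conj hg A]
    exact h4
  · rw [← Subgroup.map_commutator, ← hCn]
    exact Subgroup.map_mono h2
  · rintro _ ⟨a, ha, rfl⟩
    rw [← hCn]
    exact ⟨a ^ p, h3 a ha, by simp⟩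

theorem map_conj_eq_of_le {H : Subgroup G} {g : G}
    (h1 : H.map (MulAut.conj g).toMonoidHom ≤ H)
    (h2 : H.map (MulAut.conj g⁻¹).toMonoidHom ≤ H) :
    H.map (MulAut.conj g).toMonoidHom = H := by
  apply le_antisymm h1
  intro x hx
  refine ⟨g⁻¹ * x * g, ?_, by simp [mul_assoc]⟩
  have := h2 ⟨x, hx, rfl⟩
  simpa using this

/-- A characteristic subgroup of `H` is invariant under conjugation by elements normalizing
`H`. -/
theorem map_subtype_char_conj_le {H : Subgroup G} {g : G}
    (hg : H.map (MulAut.conj g).toMonoidHom = H) (N : Subgroup ↥H) [hN : N.Characteristic] :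
    (N.map H.subtype).map (MulAut.conj g).toMonoidHom ≤ N.map H.subtype := by
  rintro _ ⟨_, ⟨y, hy, rfl⟩, rfl⟩
  let φ : ↥H ≃* ↥H := (MulEquiv.subgroupMap (MulAut.conj g) H).trans
    (MulEquiv.subgroupCongr hg)
  have h3 : φ y ∈ N := by
    have h4 := hN.fixed φ
    rw [← h4] at hy
    exact hy
  exact ⟨φ y, h3, rfl⟩

/-- The subgroup generated by a conjugation-invariant family of best offenders. -/
theorem iSup_bo_map_conj_le {p : ℕ} {V S : Subgroup G} {g : G} (hgS : g ∈ S)
    (hg : g ∈ Subgroup.normalizer (V : Set G)) :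
    (⨆ A : {A : Subgroup G // A ≤ S ∧ Cfsg.IsBestOffenderOn p V A}, (A : Subgroup G)).map
      (MulAut.conj g).toMonoidHom ≤
    ⨆ A : {A : Subgroup G // A ≤ S ∧ Cfsg.IsBestOffenderOn p V A}, (A : Subgroup G) := by
  rw [Subgroup.map_iSup]
  apply iSup_le
  rintro ⟨B, hBS, hB⟩
  refine le_iSup (fun A : {A : Subgroup G // A ≤ S ∧ Cfsg.IsBestOffenderOn p V A} =>
    (A : Subgroup G)) ⟨B.map (MulAut.conj g).toMonoidHom, ?_, bo_conj hg hB⟩
  rintro _ ⟨b, hb, rfl⟩
  exact S.mul_mem (S.mul_mem hgS (hBS hb)) (S.inv_mem hgS)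

end Cfsg.Agent.Lib.Helper51.BoConj
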