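import Mathlib
import Cfsg.Agent.Lib.Helper88.CESStmt

/-!
# S5127 piece RECV: a map of `F` from `X` onto a receptive subgroup carries the property
"`X ≤ C_S(T)` and `X` centralizes `E`" to its image (from TRANS).
-/

set_option autoImplicit false

namespace Cfsg.Agent.Lib.Helper51.CERECV

open Cfsg Cfsg.FusionSystem Cfsg.Agent.Lib.Helper88.FCStmt Cfsg.Agent.Lib.Helper88.CESStmt

universe u

theorem main (hT : TransCentral.{u}) : RecvCentral.{u} := by
  intro Ω _ S _ p _ hS F hsat T E hEn X hXC hXE ρ hρ hrec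
  have hTS : T ≤ S := hEn.1.2.2.2.1.1
  obtain ⟨ψ, hψ, hψx⟩ := Cfsg.Agent.H85.receptive_extend_sup F hrec hρ rfl
  have hTC : T ≤ centralizerIn S X := by
    intro t ht
    refine ⟨hTS ht, ?_⟩
    intro x hx
    exact ((hXC hx).2 t ht).symm
  have hle : T ⊔ X ≤ X ⊔ centralizerIn S X := sup_le (hTC.trans le_sup_right) le_sup_left
  have hβ : ψ.comp (Subgroup.inclusion hle) ∈ F.Hom (T ⊔ X) :=
    Cfsg.Agent.H85.restrict_mem F hψ hle
  refine hT p hS F hsat E hEn X hXC hXE (ψ.comp (Subgroup.inclusion hle)) hβ ρ.range ?_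
  intro y
  constructor
  · rintro ⟨x, rfl⟩
    refine ⟨⟨(x : Ω), (le_sup_right : X ≤ T ⊔ X) x.2⟩, x.2, ?_⟩
    rw [← hψx x]
    rfl
  · rintro ⟨x, hxX, rfl⟩
    refine ⟨⟨(x : Ω), hxX⟩, ?_⟩
    rw [← hψx ⟨(x : Ω), hxX⟩]
    rfl

end Cfsg.Agent.Lib.Helper51.CERECV
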