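import Mathlib
import Cfsg.Prelude.Def_DStar

set_option autoImplicit false

namespace Cfsg.Agent.Lib.Helper51.DStar

open scoped commutatorElement

variable {G : Type*} [Group G]

/-- If the commutators of the generators centralize the generators, all commutators of the closure
centralize the generators. -/
theorem commutator_mem_centralizer_of_gens (T : Set G)
    (hT : ∀ s ∈ T, ∀ t ∈ T, ⁅s, t⁆ ∈ Subgroup.centralizer T) :
    ∀ x ∈ Subgroup.closure T, ∀ y ∈ Subgroup.closure T, ⁅x, y⁆ ∈ Subgroup.centralizer T := by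
  intro x hx y hy
  have hZ : ∀ z ∈ Subgroup.centralizer T, ∀ k ∈ Subgroup.closure T, k * z = z * k := by
    intro z hz k hk
    have : z ∈ Subgroup.centralizer ((Subgroup.closure T : Subgroup G) : Set G) := by
      rw [Subgroup.centralizer_closure]; exact hz
    exact (Subgroup.mem_centralizer_iff.1 this) k hk
  induction hx, hy using Subgroup.closure_induction₂ with
  | mem x y hx hy => exact hT x hx y hy
  | one_left x hx => simp
  | one_right x hx => simp
  | mul_left x y z hx hy hz h1 h2 =>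
    have h := hZ _ h2 x hx
    have e : ⁅x * y, z⁆ = ⁅y, z⁆ * ⁅x, z⁆ := by
      calc ⁅x * y, z⁆ = x * ⁅y, z⁆ * x⁻¹ * ⁅x, z⁆ := by
            simp only [commutatorElement_def]; group
        _ = ⁅y, z⁆ * ⁅x, z⁆ := by rw [h]; group
    rw [e]; exact mul_mem h2 h1
  | mul_right y z x hy hz hx h1 h2 =>
    have h := hZ _ h2 y hy
    have e : ⁅x, y * z⁆ = ⁅x, y⁆ * ⁅x, z⁆ := by
      calc ⁅x, y * z⁆ = ⁅x, y⁆ * (y * ⁅x, z⁆ * y⁻¹) := by
            simp only [commutatorElement_def]; group
        _ = ⁅x, y⁆ * ⁅x, z⁆ := by rw [h]; group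
    rw [e]; exact mul_mem h1 h2
  | inv_left x y hx hy h1 =>
    have h := hZ _ (inv_mem h1) x hx
    have e : ⁅x⁻¹, y⁆ = ⁅x, y⁆⁻¹ := by
      calc ⁅x⁻¹, y⁆ = x⁻¹ * (⁅x, y⁆⁻¹ * x) := by
            simp only [commutatorElement_def]; group
        _ = ⁅x, y⁆⁻¹ := by rw [← h]; group
    rw [e]; exact inv_mem h1
  | inv_right x y hx hy h1 =>
    have h := hZ _ (inv_mem h1) y hy
    have e : ⁅x, y⁻¹⁆ = ⁅x, y⁆⁻¹ := by
      calc ⁅x, y⁻¹⁆ = y⁻¹ * (⁅x, y⁆⁻¹ * y) := by
            simp only [commutatorElement_def]; group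
        _ = ⁅x, y⁆⁻¹ := by rw [← h]; group
    rw [e]; exact inv_mem h1

/-- The closure of a set whose commutators centralize it has class at most two. -/
theorem triple_commutator_eq_bot_of_gens (T : Set G)
    (hT : ∀ s ∈ T, ∀ t ∈ T, ⁅s, t⁆ ∈ Subgroup.centralizer T) :
    ⁅⁅Subgroup.closure T, Subgroup.closure T⁆, Subgroup.closure T⁆ = ⊥ := by
  rw [Subgroup.commutator_eq_bot_iff_le_centralizer, Subgroup.centralizer_closure,
    Subgroup.commutator_le]
  exact commutator_mem_centralizer_of_gens T hT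

/-- `⟨A, b⟩` has class at most two when `A` is abelian and the commutators `[a, b]` commute with
`A` and with `b`. -/
theorem class_two_sup_zpowers (A : Subgroup G) (b : G)
    (hA : ∀ a ∈ A, ∀ a' ∈ A, a * a' = a' * a)
    (hc1 : ∀ a ∈ A, ∀ a' ∈ A, a' * ⁅a, b⁆ = ⁅a, b⁆ * a')
    (hc2 : ∀ a ∈ A, b * ⁅a, b⁆ = ⁅a, b⁆ * b) :
    ⁅⁅A ⊔ Subgroup.zpowers b, A ⊔ Subgroup.zpowers b⁆, A ⊔ Subgroup.zpowers b⁆ = ⊥ := by
  have hcl : A ⊔ Subgroup.zpowers b = Subgroup.closure ((A : Set G) ∪ {b}) := by
    rw [Subgroup.closure_union, Subgroup.closure_eq, Subgroup.zpowers_eq_closure]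
  rw [hcl]
  apply triple_commutator_eq_bot_of_gens
  intro s hs t ht
  rw [Subgroup.mem_centralizer_iff]
  intro h hh
  rcases hs with hs | hs <;> rcases ht with ht | ht
  · have : ⁅s, t⁆ = 1 := by
      rw [commutatorElement_eq_one_iff_commute]; exact hA s hs t ht
    rw [this]; simp
  · rw [Set.mem_singleton_iff] at ht
    subst ht
    rcases hh with hh | hh
    · exact hc1 s hs h hh
    · rw [Set.mem_singleton_iff] at hh
      subst hh
      exact hc2 s hs
  · rw [Set.mem_singleton_iff] at hs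
    subst hs
    rw [← commutatorElement_inv]
    rcases hh with hh | hh
    · have := hc1 t ht h hh
      calc h * ⁅t, s⁆⁻¹ = ⁅t, s⁆⁻¹ * (⁅t, s⁆ * h) * ⁅t, s⁆⁻¹ := by group
        _ = ⁅t, s⁆⁻¹ * h := by rw [← this]; group
    · rw [Set.mem_singleton_iff] at hh
      subst hh
      have := hc2 t ht
      calc h * ⁅t, h⁆⁻¹ = ⁅t, h⁆⁻¹ * (⁅t, h⁆ * h) * ⁅t, h⁆⁻¹ := by group
        _ = ⁅t, h⁆⁻¹ * h := by rw [← this]; group
  · rw [Set.mem_singleton_iff] at hs ht
    subst hs; subst ht
    simp

/-- A member of the family centralizes every normal abelian subgroup (nilpotent ambient group). -/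
theorem family_commute_normal_abelian {S : Type*} [Group S] [Group.IsNilpotent S]
    (A : Subgroup S) (hA : A ∈ Cfsg.dStarFamily S) (B : Subgroup S) (hBn : B.Normal)
    (hB : IsMulCommutative B) :
    ∀ a ∈ A, ∀ b ∈ B, a * b = b * a := by
  obtain ⟨n, hn⟩ := Group.IsNilpotent.nilpotent S
  have hAc : ∀ a ∈ A, ∀ a' ∈ A, a * a' = a' * a := isMulCommutative_iff_of_setLike.1 hA.1
  have hBc : ∀ a ∈ B, ∀ a' ∈ B, a * a' = a' * a := isMulCommutative_iff_of_setLike.1 hB
  have key : ∀ i : ℕ, ∀ b ∈ B, b ∈ Subgroup.upperCentralSeries S i → ∀ a ∈ A, a * b = b * a := by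
    intro i
    induction i with
    | zero =>
      intro b _ hb a _
      rw [Subgroup.upperCentralSeries_zero, Subgroup.mem_bot] at hb
      subst hb; simp
    | succ i ih =>
      intro b hbB hb
      apply hA.2 b
      have hcB : ∀ a ∈ A, ⁅a, b⁆ ∈ B := by
        intro a _
        rw [commutatorElement_def]
        exact B.mul_mem (hBn.conj_mem b hbB a) (B.inv_mem hbB)
      have hcZ : ∀ a ∈ A, ⁅a, b⁆ ∈ Subgroup.upperCentralSeries S i := by
        intro a _
        rw [← commutatorElement_inv]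
        exact inv_mem (Subgroup.mem_upperCentralSeries_succ_iff.1 hb a)
      apply class_two_sup_zpowers A b hAc
      · intro a ha a' ha'
        exact ih _ (hcB a ha) (hcZ a ha) a' ha'
      · intro a ha
        exact hBc b hbB _ (hcB a ha)
  intro a ha b hb
  exact key n b hb (by rw [hn]; exact Subgroup.mem_top b) a ha

/-- A maximal normal abelian subgroup of a nilpotent group contains its centralizer. -/
theorem centralizer_le_of_maximal {S : Type*} [Group S] [Group.IsNilpotent S]
    (B : Subgroup S) (hBn : B.Normal) (hBc : IsMulCommutative B)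
    (hmax : ∀ B' : Subgroup S, B'.Normal → IsMulCommutative B' → B ≤ B' → B' = B) :
    Subgroup.centralizer (B : Set S) ≤ B := by
  classical
  by_contra hcon
  obtain ⟨n, hn⟩ := Group.IsNilpotent.nilpotent S
  have hex : ∃ i : ℕ, ¬ (Subgroup.centralizer (B : Set S) ⊓ Subgroup.upperCentralSeries S i ≤ B) :=
    ⟨n, by rw [hn, inf_top_eq]; exact hcon⟩
  have hi := Nat.find_spec hex
  have hmin := fun j => Nat.find_min hex (m := j)
  rcases Nat.eq_zero_or_pos (Nat.find hex) with h0 | hpos
  · rw [h0, Subgroup.upperCentralSeries_zero, inf_bot_eq] at hi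
    exact hi bot_le
  obtain ⟨j, hj⟩ : ∃ j, Nat.find hex = j + 1 := ⟨Nat.find hex - 1, by omega⟩
  have hjle : Subgroup.centralizer (B : Set S) ⊓ Subgroup.upperCentralSeries S j ≤ B := by
    have := hmin j (by omega)
    exact not_not.1 this
  rw [hj] at hi
  obtain ⟨y, hy, hyB⟩ := SetLike.not_le_iff_exists.1 hi
  have hyC : y ∈ Subgroup.centralizer (B : Set S) := hy.1
  have hyZ : y ∈ Subgroup.upperCentralSeries S (j + 1) := hy.2
  have := hBn
  have hCn : (Subgroup.centralizer (B : Set S)).Normal := Subgroup.normal_centralizer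
  have hcomm : ∀ s : S, ⁅y, s⁆ ∈ B := by
    intro s
    apply hjle
    refine ⟨?_, Subgroup.mem_upperCentralSeries_succ_iff.1 hyZ s⟩
    rw [commutatorElement_def]
    have h1 : s * y⁻¹ * s⁻¹ ∈ Subgroup.centralizer (B : Set S) :=
      hCn.conj_mem _ (inv_mem hyC) s
    have h2 := mul_mem hyC h1
    have e : y * s * y⁻¹ * s⁻¹ = y * (s * y⁻¹ * s⁻¹) := by group
    rw [e]; exact h2
  have hyB' : y ∈ B ⊔ Subgroup.zpowers y :=
    (le_sup_right : Subgroup.zpowers y ≤ B ⊔ Subgroup.zpowers y) (Subgroup.mem_zpowers y)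
  have hnormal : (B ⊔ Subgroup.zpowers y).Normal := by
    constructor
    intro x hx s
    have hmap : (B ⊔ Subgroup.zpowers y).map (MulAut.conj s).toMonoidHom ≤ B ⊔ Subgroup.zpowers y := by
      rw [Subgroup.map_sup]
      refine sup_le ?_ ?_
      · rintro _ ⟨b, hb, rfl⟩
        exact (le_sup_left : B ≤ B ⊔ Subgroup.zpowers y) (hBn.conj_mem b hb s)
      · rw [MonoidHom.map_zpowers, Subgroup.zpowers_le]
        have e : (MulAut.conj s).toMonoidHom y = ⁅y, s⁆⁻¹ * y := by
          simp only [commutatorElement_def, MulEquiv.toMonoidHom_eq_coe, MonoidHom.coe_coe,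
            MulAut.conj_apply]
          group
        rw [e]
        exact mul_mem ((le_sup_left : B ≤ B ⊔ Subgroup.zpowers y) (inv_mem (hcomm s))) hyB'
    have := hmap ⟨x, hx, rfl⟩
    simpa using this
  have hBel : ∀ a ∈ B, ∀ a' ∈ B, a * a' = a' * a := isMulCommutative_iff_of_setLike.1 hBc
  have hcommut : IsMulCommutative ↥(B ⊔ Subgroup.zpowers y) := by
    have hcl : B ⊔ Subgroup.zpowers y = Subgroup.closure ((B : Set S) ∪ {y}) := by
      rw [Subgroup.closure_union, Subgroup.closure_eq, Subgroup.zpowers_eq_closure]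
    rw [hcl]
    apply Subgroup.isMulCommutative_closure
    intro s hs t ht
    rcases hs with hs | hs <;> rcases ht with ht | ht
    · exact hBel s hs t ht
    · rw [Set.mem_singleton_iff] at ht; subst ht
      exact (Subgroup.mem_centralizer_iff.1 hyC) s hs
    · rw [Set.mem_singleton_iff] at hs; subst hs
      exact ((Subgroup.mem_centralizer_iff.1 hyC) t ht).symm
    · rw [Set.mem_singleton_iff] at hs ht; subst hs; subst ht; rfl
  have := hmax _ hnormal hcommut le_sup_left
  rw [this] at hyB'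
  exact hyB hyB'

/-- A finite group has a maximal normal abelian subgroup. -/
theorem exists_maximal_normal_abelian {S : Type*} [Group S] [Finite S] :
    ∃ B : Subgroup S, B.Normal ∧ IsMulCommutative B ∧
      ∀ B' : Subgroup S, B'.Normal → IsMulCommutative B' → B ≤ B' → B' = B := by
  classical
  have hne : Nonempty {B : Subgroup S // B.Normal ∧ IsMulCommutative B} :=
    ⟨⟨⊥, inferInstance, inferInstance⟩⟩
  obtain ⟨B, hB⟩ := Finite.exists_max
    (fun B : {B : Subgroup S // B.Normal ∧ IsMulCommutative B} => Nat.card B.1)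
  refine ⟨B.1, B.2.1, B.2.2, ?_⟩
  intro B' hn hc hle
  exact (Subgroup.eq_of_le_of_card_ge hle (hB ⟨B', hn, hc⟩)).symm

/-- `D*(S)` lies in every maximal normal abelian subgroup of a nilpotent group `S`. -/
theorem dStar_le_of_maximal {S : Type*} [Group S] [Group.IsNilpotent S]
    (B : Subgroup S) (hBn : B.Normal) (hBc : IsMulCommutative B)
    (hmax : ∀ B' : Subgroup S, B'.Normal → IsMulCommutative B' → B ≤ B' → B' = B) :
    Cfsg.dStar S ≤ B := by
  apply sSup_le
  intro A hA
  have h1 := family_commute_normal_abelian A hA B hBn hBc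
  have h2 : A ≤ Subgroup.centralizer (B : Set S) := fun a ha =>
    Subgroup.mem_centralizer_iff.2 (fun b hb => (h1 a ha b hb).symm)
  exact h2.trans (centralizer_le_of_maximal B hBn hBc hmax)

/-- `D*(S)` is abelian for a finite nilpotent group. -/
theorem dStar_commute {S : Type*} [Group S] [Finite S] [Group.IsNilpotent S] :
    ∀ a ∈ Cfsg.dStar S, ∀ b ∈ Cfsg.dStar S, a * b = b * a := by
  obtain ⟨B, hBn, hBc, hmax⟩ := exists_maximal_normal_abelian (S := S)
  have hle := dStar_le_of_maximal B hBn hBc hmax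
  intro a ha b hb
  exact isMulCommutative_iff_of_setLike.1 hBc a (hle ha) b (hle hb)

/-- `D*(S)` is a member of its defining family for a finite nilpotent group. -/
theorem dStar_mem_family {S : Type*} [Group S] [Finite S] [Group.IsNilpotent S] :
    Cfsg.dStar S ∈ Cfsg.dStarFamily S := by
  refine ⟨isMulCommutative_iff_of_setLike.2 dStar_commute, ?_⟩
  intro x hx a ha
  have hle : Cfsg.dStar S ≤ Subgroup.centralizer ({x} : Set S) := by
    apply sSup_le
    intro A hA a ha
    have hmono : A ⊔ Subgroup.zpowers x ≤ Cfsg.dStar S ⊔ Subgroup.zpowers x :=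
      sup_le_sup_right (le_sSup hA) _
    have h3 : ⁅⁅A ⊔ Subgroup.zpowers x, A ⊔ Subgroup.zpowers x⁆, A ⊔ Subgroup.zpowers x⁆ = ⊥ := by
      rw [eq_bot_iff, ← hx]
      exact Subgroup.commutator_mono (Subgroup.commutator_mono hmono hmono) hmono
    have := hA.2 x h3 a ha
    rw [Subgroup.mem_centralizer_iff]
    intro h hh
    rw [Set.mem_singleton_iff] at hh
    subst hh
    exact this.symm
  have := (Subgroup.mem_centralizer_iff.1 (hle ha)) x rfl
  exact this.symm

end Cfsg.Agent.Lib.Helper51.DStar
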