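import Mathlib
import Cfsg.Agent.Lib.Helper27.McStmt

set_option autoImplicit false

/-! S2132 piece BRIDGE: from the basis of roots to the standard basis of the form. -/

namespace Cfsg.Agent.Lib.Helper51.McBRIDGE

open Cfsg Cfsg.Agent.Lib.Helper27.McStmt
open scoped Matrix

set_option maxRecDepth 100000 in
theorem col_eq : ∀ k : Fin 4, (fun i => Pw i k) =
    pmat *ᵥ vecOf (([124, 245, 143, 145] : List ℕ).getD k.val 0) := by
  decide +kernel

set_option maxRecDepth 100000 in
theorem pinv_pmat : pinv * pmat = 1 := by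
  decide +kernel

set_option maxRecDepth 100000 in
theorem in_W : ∀ m ∈ ([6, 24, 30, 98, 100, 122, 124, 137, 143, 145, 151, 235, 237, 243, 245] :
    List ℕ), ∃ c : Fin 4 → ZMod 2, pmat *ᵥ vecOf m = Pw *ᵥ c := by
  decide +kernel

theorem main : Cfsg.Agent.Lib.Helper27.McStmt.Bridge := by
  intro R hR k
  obtain ⟨m, hm, hRm⟩ := hR k
  obtain ⟨c, hc⟩ := in_W m hm
  refine ⟨c, ?_⟩
  rw [col_eq k, Matrix.mulVec_mulVec, Matrix.mul_assoc, pinv_pmat, Matrix.mul_one,
    ← Matrix.mulVec_mulVec, hRm, hc]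

end Cfsg.Agent.Lib.Helper51.McBRIDGE
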