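import Mathlib
import Cfsg.Agent.Lib.Helper27.McStmt

set_option autoImplicit false

/-! S2132 piece GEN4: two matrices generating the special linear group of degree 4 over the field
of two elements.  The twelve elementary transvections are written as words in the two matrices
(the intermediate products are checked one at a time). -/

namespace Cfsg.Agent.Lib.Helper51.McGEN4

open Cfsg Cfsg.Agent.Lib.Helper27.McStmt
open scoped Matrix

/-- the subgroup contains an element whose matrix has the given code -/
def S (H : Subgroup SL4) (c : ℕ) : Prop := ∃ h ∈ H, ((h : SL4) : M4) = mat4 c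

theorem S_mul {H : Subgroup SL4} {c₁ c₂ c₃ : ℕ} (h1 : S H c₁) (h2 : S H c₂)
    (h : mat4 c₁ * mat4 c₂ = mat4 c₃) : S H c₃ := by
  obtain ⟨x, hx, hx'⟩ := h1
  obtain ⟨y, hy, hy'⟩ := h2
  exact ⟨x * y, H.mul_mem hx hy, by rw [Matrix.SpecialLinearGroup.coe_mul, hx', hy', h]⟩

theorem S_inv {H : Subgroup SL4} {c c' : ℕ} (h1 : S H c) (h : mat4 c * mat4 c' = 1) :
    S H c' := by
  obtain ⟨x, hx, hx'⟩ := h1
  refine ⟨x⁻¹, H.inv_mem hx, ?_⟩
  have h2 : ((x⁻¹ : SL4) : M4) * ((x : SL4) : M4) = 1 := by
    rw [← Matrix.SpecialLinearGroup.coe_mul, inv_mul_cancel, Matrix.SpecialLinearGroup.coe_one]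
  calc ((x⁻¹ : SL4) : M4) = ((x⁻¹ : SL4) : M4) * (mat4 c * mat4 c') := by rw [h, Matrix.mul_one]
    _ = (((x⁻¹ : SL4) : M4) * ((x : SL4) : M4)) * mat4 c' := by rw [hx', Matrix.mul_assoc]
    _ = mat4 c' := by rw [h2, Matrix.one_mul]

theorem transv_mem (H : Subgroup SL4) (i j : Fin 4) (hij : i ≠ j) (c : ℕ) (hS : S H c)
    (hc : mat4 c = Matrix.transvection i j 1) :
    Matrix.SpecialLinearGroup.transvection hij (1 : ZMod 2) ∈ H := by
  obtain ⟨x, hx, hx'⟩ := hS
  have : x = Matrix.SpecialLinearGroup.transvection hij (1 : ZMod 2) := by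
    apply Subtype.ext
    rw [hx', hc]
    rfl
  rw [← this]
  exact hx
theorem inv_a : mat4 39633 * mat4 39633 = 1 := by decide +kernel

theorem inv_b : mat4 5092 * mat4 61896 = 1 := by decide +kernel

theorem p0 : mat4 39633 * mat4 61896 = mat4 29544 := by decide +kernel

theorem p1 : mat4 29544 * mat4 39633 = mat4 27769 := by decide +kernel

theorem p2 : mat4 27769 * mat4 61896 = mat4 56919 := by decide +kernel

theorem p3 : mat4 56919 * mat4 39633 = mat4 11958 := by decide +kernel

theorem p4 : mat4 11958 * mat4 5092 = mat4 60605 := by decide +kernel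

theorem p5 : mat4 60605 * mat4 5092 = mat4 49846 := by decide +kernel

theorem p6 : mat4 49846 * mat4 5092 = mat4 11965 := by decide +kernel

theorem p7 : mat4 11965 * mat4 39633 = mat4 56914 := by decide +kernel

theorem p8 : mat4 56914 * mat4 5092 = mat4 27774 := by decide +kernel

theorem p9 : mat4 27774 * mat4 39633 = mat4 29550 := by decide +kernel

theorem p10 : mat4 29550 * mat4 5092 = mat4 39644 := by decide +kernel

theorem p11 : mat4 39644 * mat4 39633 = mat4 33827 := by decide +kernel

theorem p12 : mat4 39633 * mat4 5092 = mat4 24420 := by decide +kernel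

theorem p13 : mat4 24420 * mat4 5092 = mat4 30931 := by decide +kernel

theorem p14 : mat4 30931 * mat4 39633 = mat4 26924 := by decide +kernel

theorem p15 : mat4 26924 * mat4 5092 = mat4 54754 := by decide +kernel

theorem p16 : mat4 54754 * mat4 39633 = mat4 11245 := by decide +kernel

theorem p17 : mat4 11245 * mat4 5092 = mat4 60358 := by decide +kernel

theorem p18 : mat4 60358 * mat4 5092 = mat4 52013 := by decide +kernel

theorem p19 : mat4 52013 * mat4 5092 = mat4 11238 := by decide +kernel

theorem p20 : mat4 11238 * mat4 39633 = mat4 54759 := by decide +kernel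

theorem p21 : mat4 54759 * mat4 61896 = mat4 26917 := by decide +kernel

theorem p22 : mat4 26917 * mat4 39633 = mat4 30939 := by decide +kernel

theorem p23 : mat4 30939 * mat4 61896 = mat4 24427 := by decide +kernel

theorem p24 : mat4 24427 * mat4 61896 = mat4 39643 := by decide +kernel

theorem p25 : mat4 39643 * mat4 39633 = mat4 33829 := by decide +kernel

theorem p26 : mat4 24420 * mat4 39633 = mat4 49018 := by decide +kernel

theorem p27 : mat4 49018 * mat4 5092 = mat4 47263 := by decide +kernel

theorem p28 : mat4 47263 * mat4 39633 = mat4 22927 := by decide +kernel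

theorem p29 : mat4 22927 * mat4 5092 = mat4 29976 := by decide +kernel

theorem p30 : mat4 29976 * mat4 5092 = mat4 38721 := by decide +kernel

theorem p31 : mat4 38721 * mat4 5092 = mat4 22836 := by decide +kernel

theorem p32 : mat4 22836 * mat4 39633 = mat4 47306 := by decide +kernel

theorem p33 : mat4 47306 * mat4 61896 = mat4 49123 := by decide +kernel

theorem p34 : mat4 49123 * mat4 61896 = mat4 47652 := by decide +kernel

theorem p35 : mat4 47652 * mat4 39633 = mat4 21722 := by decide +kernel

theorem p36 : mat4 21722 * mat4 5092 = mat4 29551 := by decide +kernel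

theorem p37 : mat4 29551 * mat4 5092 = mat4 39640 := by decide +kernel

theorem p38 : mat4 39640 * mat4 39633 = mat4 33833 := by decide +kernel

theorem p39 : mat4 47263 * mat4 5092 = mat4 45400 := by decide +kernel

theorem p40 : mat4 45400 * mat4 39633 = mat4 20921 := by decide +kernel

theorem p41 : mat4 20921 * mat4 5092 = mat4 29877 := by decide +kernel

theorem p42 : mat4 29877 * mat4 39633 = mat4 27227 := by decide +kernel

theorem p43 : mat4 27227 * mat4 61896 = mat4 54171 := by decide +kernel

theorem p44 : mat4 54171 * mat4 39633 = mat4 11397 := by decide +kernel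

theorem p45 : mat4 11397 * mat4 5092 = mat4 57879 := by decide +kernel

theorem p46 : mat4 57879 * mat4 5092 = mat4 52809 := by decide +kernel

theorem p47 : mat4 52809 * mat4 39633 = mat4 16040 := by decide +kernel

theorem p48 : mat4 16040 * mat4 61896 = mat4 16959 := by decide +kernel

theorem p49 : mat4 16959 * mat4 61896 = mat4 7242 := by decide +kernel

theorem p50 : mat4 7242 * mat4 39633 = mat4 5028 := by decide +kernel

theorem p51 : mat4 5028 * mat4 61896 = mat4 33841 := by decide +kernel

theorem p52 : mat4 61896 * mat4 61896 = mat4 43247 := by decide +kernel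

theorem p53 : mat4 43247 * mat4 39633 = mat4 18927 := by decide +kernel

theorem p54 : mat4 18927 * mat4 5092 = mat4 13768 := by decide +kernel

theorem p55 : mat4 13768 * mat4 39633 = mat4 52025 := by decide +kernel

theorem p56 : mat4 52025 * mat4 5092 = mat4 11173 := by decide +kernel

theorem p57 : mat4 11173 * mat4 5092 = mat4 60407 := by decide +kernel

theorem p58 : mat4 60407 * mat4 5092 = mat4 52105 := by decide +kernel

theorem p59 : mat4 52105 * mat4 39633 = mat4 13720 := by decide +kernel

theorem p60 : mat4 13720 * mat4 61896 = mat4 18815 := by decide +kernel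

theorem p61 : mat4 18815 * mat4 39633 = mat4 43119 := by decide +kernel

theorem p62 : mat4 43119 * mat4 5092 = mat4 61912 := by decide +kernel

theorem p63 : mat4 61912 * mat4 5092 = mat4 33889 := by decide +kernel

theorem p64 : mat4 33829 * mat4 61896 = mat4 61897 := by decide +kernel

theorem p65 : mat4 61897 * mat4 39633 = mat4 61752 := by decide +kernel

theorem p66 : mat4 61752 * mat4 5092 = mat4 33953 := by decide +kernel

theorem p67 : mat4 61896 * mat4 39633 = mat4 61753 := by decide +kernel

theorem p68 : mat4 61753 * mat4 5092 = mat4 33957 := by decide +kernel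

theorem p69 : mat4 33957 * mat4 39633 = mat4 39499 := by decide +kernel

theorem p70 : mat4 39499 * mat4 61896 = mat4 29467 := by decide +kernel

theorem p71 : mat4 29467 * mat4 39633 = mat4 27669 := by decide +kernel

theorem p72 : mat4 27669 * mat4 5092 = mat4 53831 := by decide +kernel

theorem p73 : mat4 53831 * mat4 5092 = mat4 28217 := by decide +kernel

theorem p74 : mat4 28217 * mat4 5092 = mat4 56485 := by decide +kernel

theorem p75 : mat4 56485 * mat4 39633 = mat4 9035 := by decide +kernel

theorem p76 : mat4 9035 * mat4 61896 = mat4 50203 := by decide +kernel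

theorem p77 : mat4 50203 * mat4 39633 = mat4 14869 := by decide +kernel

theorem p78 : mat4 14869 * mat4 5092 = mat4 44871 := by decide +kernel

theorem p79 : mat4 44871 * mat4 5092 = mat4 63545 := by decide +kernel

theorem p80 : mat4 63545 * mat4 39633 = mat4 63944 := by decide +kernel

theorem p81 : mat4 63944 * mat4 5092 = mat4 34081 := by decide +kernel

theorem p82 : mat4 49018 * mat4 61896 = mat4 47699 := by decide +kernel

theorem p83 : mat4 47699 * mat4 39633 = mat4 21692 := by decide +kernel

theorem p84 : mat4 21692 * mat4 5092 = mat4 29618 := by decide +kernel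

theorem p85 : mat4 29618 * mat4 5092 = mat4 39614 := by decide +kernel

theorem p86 : mat4 39614 * mat4 5092 = mat4 24508 := by decide +kernel

theorem p87 : mat4 24508 * mat4 39633 = mat4 48979 := by decide +kernel

theorem p88 : mat4 48979 * mat4 5092 = mat4 47226 := by decide +kernel

theorem p89 : mat4 47226 * mat4 39633 = mat4 22884 := by decide +kernel

theorem p90 : mat4 22884 * mat4 61896 = mat4 38865 := by decide +kernel

theorem p91 : mat4 38865 * mat4 39633 = mat4 34337 := by decide +kernel

theorem p92 : mat4 47306 * mat4 5092 = mat4 45359 := by decide +kernel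

theorem p93 : mat4 45359 * mat4 39633 = mat4 20959 := by decide +kernel

theorem p94 : mat4 20959 * mat4 5092 = mat4 29800 := by decide +kernel

theorem p95 : mat4 29800 * mat4 5092 = mat4 37841 := by decide +kernel

theorem p96 : mat4 37841 * mat4 39633 = mat4 35873 := by decide +kernel

theorem p97 : mat4 20921 * mat4 61896 = mat4 39095 := by decide +kernel

theorem p98 : mat4 39095 * mat4 61896 = mat4 32693 := by decide +kernel

theorem p99 : mat4 32693 * mat4 39633 = mat4 28507 := by decide +kernel

theorem p100 : mat4 28507 * mat4 61896 = mat4 55963 := by decide +kernel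

theorem p101 : mat4 55963 * mat4 61896 = mat4 25467 := by decide +kernel

theorem p102 : mat4 25467 * mat4 39633 = mat4 31845 := by decide +kernel

theorem p103 : mat4 31845 * mat4 61896 = mat4 24281 := by decide +kernel

theorem p104 : mat4 24281 * mat4 39633 = mat4 48680 := by decide +kernel

theorem p105 : mat4 48680 * mat4 61896 = mat4 45775 := by decide +kernel

theorem p106 : mat4 45775 * mat4 61896 = mat4 48362 := by decide +kernel

theorem p107 : mat4 48362 * mat4 39633 = mat4 21476 := by decide +kernel

theorem p108 : mat4 21476 * mat4 61896 = mat4 37921 := by decide +kernel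

theorem p109 : mat4 5092 * mat4 39633 = mat4 7402 := by decide +kernel

theorem p110 : mat4 7402 * mat4 61896 = mat4 36387 := by decide +kernel

theorem p111 : mat4 36387 * mat4 39633 = mat4 40668 := by decide +kernel

theorem p112 : mat4 40668 * mat4 5092 = mat4 23650 := by decide +kernel

theorem p113 : mat4 23650 * mat4 5092 = mat4 29406 := by decide +kernel

theorem p114 : mat4 29406 * mat4 39633 = mat4 27950 := by decide +kernel

theorem p115 : mat4 27950 * mat4 61896 = mat4 54978 := by decide +kernel

theorem p116 : mat4 54978 * mat4 39633 = mat4 10045 := by decide +kernel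

theorem p117 : mat4 10045 * mat4 5092 = mat4 59814 := by decide +kernel

theorem p118 : mat4 59814 * mat4 39633 = mat4 59463 := by decide +kernel

theorem p119 : mat4 59463 * mat4 5092 = mat4 49465 := by decide +kernel

theorem p120 : mat4 49465 * mat4 39633 = mat4 12744 := by decide +kernel

theorem p121 : mat4 12744 * mat4 5092 = mat4 42017 := by decide +kernel

theorem p122 : mat4 27769 * mat4 5092 = mat4 53909 := by decide +kernel

theorem p123 : mat4 53909 * mat4 5092 = mat4 28247 := by decide +kernel

theorem p124 : mat4 28247 * mat4 39633 = mat4 32438 := by decide +kernel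

theorem p125 : mat4 32438 * mat4 61896 = mat4 21181 := by decide +kernel

theorem p126 : mat4 21181 * mat4 39633 = mat4 48466 := by decide +kernel

theorem p127 : mat4 48466 * mat4 61896 = mat4 46748 := by decide +kernel

theorem p128 : mat4 46748 * mat4 61896 = mat4 48510 := by decide +kernel

theorem p129 : mat4 48510 * mat4 39633 = mat4 21102 := by decide +kernel

theorem p130 : mat4 21102 * mat4 5092 = mat4 32476 := by decide +kernel

theorem p131 : mat4 32476 * mat4 39633 = mat4 28195 := by decide +kernel

theorem p132 : mat4 28195 * mat4 5092 = mat4 56554 := by decide +kernel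

theorem p133 : mat4 56554 * mat4 39633 = mat4 9188 := by decide +kernel

theorem p134 : mat4 9188 * mat4 61896 = mat4 50209 := by decide +kernel

theorem all_transv (H : Subgroup SL4) (sa : S H 39633) (sb : S H 5092) :
    ∀ (i j : Fin 4) (hij : i ≠ j), Matrix.SpecialLinearGroup.transvection hij (1 : ZMod 2) ∈ H := by
  have sai : S H 39633 := S_inv sa inv_a
  have sbi : S H 61896 := S_inv sb inv_b
  have s0 : S H 29544 := S_mul sai sbi p0
  have s1 : S H 27769 := S_mul s0 sai p1
  have s2 : S H 56919 := S_mul s1 sbi p2
  have s3 : S H 11958 := S_mul s2 sai p3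
  have s4 : S H 60605 := S_mul s3 sb p4
  have s5 : S H 49846 := S_mul s4 sb p5
  have s6 : S H 11965 := S_mul s5 sb p6
  have s7 : S H 56914 := S_mul s6 sai p7
  have s8 : S H 27774 := S_mul s7 sb p8
  have s9 : S H 29550 := S_mul s8 sai p9
  have s10 : S H 39644 := S_mul s9 sb p10
  have s11 : S H 33827 := S_mul s10 sai p11
  have s12 : S H 24420 := S_mul sai sb p12
  have s13 : S H 30931 := S_mul s12 sb p13
  have s14 : S H 26924 := S_mul s13 sai p14
  have s15 : S H 54754 := S_mul s14 sb p15
  have s16 : S H 11245 := S_mul s15 sai p16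
  have s17 : S H 60358 := S_mul s16 sb p17
  have s18 : S H 52013 := S_mul s17 sb p18
  have s19 : S H 11238 := S_mul s18 sb p19
  have s20 : S H 54759 := S_mul s19 sai p20
  have s21 : S H 26917 := S_mul s20 sbi p21
  have s22 : S H 30939 := S_mul s21 sai p22
  have s23 : S H 24427 := S_mul s22 sbi p23
  have s24 : S H 39643 := S_mul s23 sbi p24
  have s25 : S H 33829 := S_mul s24 sai p25
  have s26 : S H 49018 := S_mul s12 sai p26
  have s27 : S H 47263 := S_mul s26 sb p27
  have s28 : S H 22927 := S_mul s27 sai p28
  have s29 : S H 29976 := S_mul s28 sb p29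
  have s30 : S H 38721 := S_mul s29 sb p30
  have s31 : S H 22836 := S_mul s30 sb p31
  have s32 : S H 47306 := S_mul s31 sai p32
  have s33 : S H 49123 := S_mul s32 sbi p33
  have s34 : S H 47652 := S_mul s33 sbi p34
  have s35 : S H 21722 := S_mul s34 sai p35
  have s36 : S H 29551 := S_mul s35 sb p36
  have s37 : S H 39640 := S_mul s36 sb p37
  have s38 : S H 33833 := S_mul s37 sai p38
  have s39 : S H 45400 := S_mul s27 sb p39
  have s40 : S H 20921 := S_mul s39 sai p40
  have s41 : S H 29877 := S_mul s40 sb p41
  have s42 : S H 27227 := S_mul s41 sai p42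
  have s43 : S H 54171 := S_mul s42 sbi p43
  have s44 : S H 11397 := S_mul s43 sai p44
  have s45 : S H 57879 := S_mul s44 sb p45
  have s46 : S H 52809 := S_mul s45 sb p46
  have s47 : S H 16040 := S_mul s46 sai p47
  have s48 : S H 16959 := S_mul s47 sbi p48
  have s49 : S H 7242 := S_mul s48 sbi p49
  have s50 : S H 5028 := S_mul s49 sai p50
  have s51 : S H 33841 := S_mul s50 sbi p51
  have s52 : S H 43247 := S_mul sbi sbi p52
  have s53 : S H 18927 := S_mul s52 sai p53
  have s54 : S H 13768 := S_mul s53 sb p54
  have s55 : S H 52025 := S_mul s54 sai p55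
  have s56 : S H 11173 := S_mul s55 sb p56
  have s57 : S H 60407 := S_mul s56 sb p57
  have s58 : S H 52105 := S_mul s57 sb p58
  have s59 : S H 13720 := S_mul s58 sai p59
  have s60 : S H 18815 := S_mul s59 sbi p60
  have s61 : S H 43119 := S_mul s60 sai p61
  have s62 : S H 61912 := S_mul s61 sb p62
  have s63 : S H 33889 := S_mul s62 sb p63
  have s64 : S H 61897 := S_mul s25 sbi p64
  have s65 : S H 61752 := S_mul s64 sai p65
  have s66 : S H 33953 := S_mul s65 sb p66
  have s67 : S H 61753 := S_mul sbi sai p67
  have s68 : S H 33957 := S_mul s67 sb p68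
  have s69 : S H 39499 := S_mul s68 sai p69
  have s70 : S H 29467 := S_mul s69 sbi p70
  have s71 : S H 27669 := S_mul s70 sai p71
  have s72 : S H 53831 := S_mul s71 sb p72
  have s73 : S H 28217 := S_mul s72 sb p73
  have s74 : S H 56485 := S_mul s73 sb p74
  have s75 : S H 9035 := S_mul s74 sai p75
  have s76 : S H 50203 := S_mul s75 sbi p76
  have s77 : S H 14869 := S_mul s76 sai p77
  have s78 : S H 44871 := S_mul s77 sb p78
  have s79 : S H 63545 := S_mul s78 sb p79
  have s80 : S H 63944 := S_mul s79 sai p80
  have s81 : S H 34081 := S_mul s80 sb p81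
  have s82 : S H 47699 := S_mul s26 sbi p82
  have s83 : S H 21692 := S_mul s82 sai p83
  have s84 : S H 29618 := S_mul s83 sb p84
  have s85 : S H 39614 := S_mul s84 sb p85
  have s86 : S H 24508 := S_mul s85 sb p86
  have s87 : S H 48979 := S_mul s86 sai p87
  have s88 : S H 47226 := S_mul s87 sb p88
  have s89 : S H 22884 := S_mul s88 sai p89
  have s90 : S H 38865 := S_mul s89 sbi p90
  have s91 : S H 34337 := S_mul s90 sai p91
  have s92 : S H 45359 := S_mul s32 sb p92
  have s93 : S H 20959 := S_mul s92 sai p93
  have s94 : S H 29800 := S_mul s93 sb p94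
  have s95 : S H 37841 := S_mul s94 sb p95
  have s96 : S H 35873 := S_mul s95 sai p96
  have s97 : S H 39095 := S_mul s40 sbi p97
  have s98 : S H 32693 := S_mul s97 sbi p98
  have s99 : S H 28507 := S_mul s98 sai p99
  have s100 : S H 55963 := S_mul s99 sbi p100
  have s101 : S H 25467 := S_mul s100 sbi p101
  have s102 : S H 31845 := S_mul s101 sai p102
  have s103 : S H 24281 := S_mul s102 sbi p103
  have s104 : S H 48680 := S_mul s103 sai p104
  have s105 : S H 45775 := S_mul s104 sbi p105
  have s106 : S H 48362 := S_mul s105 sbi p106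
  have s107 : S H 21476 := S_mul s106 sai p107
  have s108 : S H 37921 := S_mul s107 sbi p108
  have s109 : S H 7402 := S_mul sb sai p109
  have s110 : S H 36387 := S_mul s109 sbi p110
  have s111 : S H 40668 := S_mul s110 sai p111
  have s112 : S H 23650 := S_mul s111 sb p112
  have s113 : S H 29406 := S_mul s112 sb p113
  have s114 : S H 27950 := S_mul s113 sai p114
  have s115 : S H 54978 := S_mul s114 sbi p115
  have s116 : S H 10045 := S_mul s115 sai p116
  have s117 : S H 59814 := S_mul s116 sb p117
  have s118 : S H 59463 := S_mul s117 sai p118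
  have s119 : S H 49465 := S_mul s118 sb p119
  have s120 : S H 12744 := S_mul s119 sai p120
  have s121 : S H 42017 := S_mul s120 sb p121
  have s122 : S H 53909 := S_mul s1 sb p122
  have s123 : S H 28247 := S_mul s122 sb p123
  have s124 : S H 32438 := S_mul s123 sai p124
  have s125 : S H 21181 := S_mul s124 sbi p125
  have s126 : S H 48466 := S_mul s125 sai p126
  have s127 : S H 46748 := S_mul s126 sbi p127
  have s128 : S H 48510 := S_mul s127 sbi p128
  have s129 : S H 21102 := S_mul s128 sai p129
  have s130 : S H 32476 := S_mul s129 sb p130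
  have s131 : S H 28195 := S_mul s130 sai p131
  have s132 : S H 56554 := S_mul s131 sb p132
  have s133 : S H 9188 := S_mul s132 sai p133
  have s134 : S H 50209 := S_mul s133 sbi p134
  intro i j hij
  fin_cases i <;> fin_cases j
  · exact absurd rfl hij
  · exact transv_mem H _ _ hij 33827 s11 (by decide +kernel)
  · exact transv_mem H _ _ hij 33829 s25 (by decide +kernel)
  · exact transv_mem H _ _ hij 33833 s38 (by decide +kernel)
  · exact transv_mem H _ _ hij 33841 s51 (by decide +kernel)
  · exact absurd rfl hij
  · exact transv_mem H _ _ hij 33889 s63 (by decide +kernel)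
  · exact transv_mem H _ _ hij 33953 s66 (by decide +kernel)
  · exact transv_mem H _ _ hij 34081 s81 (by decide +kernel)
  · exact transv_mem H _ _ hij 34337 s91 (by decide +kernel)
  · exact absurd rfl hij
  · exact transv_mem H _ _ hij 35873 s96 (by decide +kernel)
  · exact transv_mem H _ _ hij 37921 s108 (by decide +kernel)
  · exact transv_mem H _ _ hij 42017 s121 (by decide +kernel)
  · exact transv_mem H _ _ hij 50209 s134 (by decide +kernel)
  · exact absurd rfl hij

theorem main : Cfsg.Agent.Lib.Helper27.McStmt.Gen4 := by
  intro H ha hb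
  have hall := all_transv H ha hb
  rw [eq_top_iff]
  intro M _
  refine Matrix.SpecialLinearGroup.diagonal_transvection_induction'
    (fun A => A ∈ H) M ?_ ?_ ?_
  · intro i j hij c hc
    have hc1 : c = 1 := by
      revert hc
      revert c
      decide
    subst hc1
    have : Matrix.SpecialLinearGroup.diag2n hij (1 : ZMod 2) hc = 1 := by
      apply Subtype.ext
      rw [Matrix.SpecialLinearGroup.diag2n_coe]
      simp
    rw [this]
    exact H.one_mem
  · intro i j hij c
    have hc : c = 0 ∨ c = 1 := by
      revert c
      decide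
    rcases hc with rfl | rfl
    · rw [Matrix.SpecialLinearGroup.transvection_coeff_zero]
      exact H.one_mem
    · exact hall i j hij
  · intro A B hA hB
    exact H.mul_mem hA hB

end Cfsg.Agent.Lib.Helper51.McGEN4
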