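import Mathlib
import Cfsg.Agent.Lib.Helper89.NCStmt

/-!
# S3921: small shared facts on the property `NC`

* `nc_subgroup`: `NC` passes to subgroups;
* `inv_unique_of_cyclic`: a finite cyclic group has at most one involution.
-/

set_option autoImplicit false

namespace Cfsg.Agent.Lib.Helper51.NCBase

open Cfsg.Agent.Lib.Helper89.NCStmt

universe u

theorem nc_subgroup {G : Type u} [Group G] (h : NC G) (H : Subgroup G) : NC ↥H := by
  intro L hL x hx
  have hL' : ¬ IsCyclic ↥(L.map H.subtype) := by
    intro hc
    apply hL
    exact isCyclic_of_surjective (Subgroup.equivMapOfInjective L H.subtype H.subtype_injective).symm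
      (Subgroup.equivMapOfInjective L H.subtype H.subtype_injective).symm.surjective
  have h1 : (x : G) ∈ Subgroup.centralizer ((L.map H.subtype : Subgroup G) : Set G) := by
    rw [Subgroup.mem_centralizer_iff]
    rintro _ ⟨l, hl, rfl⟩
    have h2 := (Subgroup.mem_centralizer_iff.mp hx) l hl
    exact congrArg Subtype.val h2
  obtain ⟨l, hl, hlx⟩ := h (L.map H.subtype) hL' h1
  have h3 : l = x := Subtype.ext hlx
  rw [← h3]
  exact hl

theorem inv_unique_of_cyclic {H : Type*} [Group H] [Finite H] [IsCyclic H] {a b : H}
    (ha : orderOf a = 2) (hb : orderOf b = 2) : a = b := by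
  classical
  have := Fintype.ofFinite H
  have hd : 2 ∣ Fintype.card H := by
    rw [← ha]
    exact orderOf_dvd_card
  have h := IsCyclic.card_orderOf_eq_totient (α := H) hd
  rw [Nat.totient_two, Finset.card_eq_one] at h
  obtain ⟨c, hc⟩ := h
  have h1 : a ∈ ({c} : Finset H) := by
    rw [← hc]
    simp [ha]
  have h2 : b ∈ ({c} : Finset H) := by
    rw [← hc]
    simp [hb]
  rw [Finset.mem_singleton] at h1 h2
  rw [h1, h2]

end Cfsg.Agent.Lib.Helper51.NCBase
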