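import Mathlib
import Cfsg.Agent.Lib.Helper87.PCStmt
import Cfsg.Agent.Lib.Helper87.FSAlperin
import Cfsg.Agent.Lib.Helper88.AlpCentric

/-!
# Piece ESUB of S5243: the subsystem `E` lies in `D`
-/

set_option autoImplicit false

namespace Cfsg.Agent.Lib.Helper51.PCESUB

open Cfsg Cfsg.FusionSystem Cfsg.Agent.H85 Cfsg.Agent.Lib.Helper87.PCStmt

universe u

theorem main : ESub.{u} := by
  intro Ω _ S T _ p _ F E K c hW hFrat hAutD
  have hTS : T ≤ S := c.hTS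
  haveI : Finite T := finite_of_le hTS
  have hTp : IsPGroup p T := c.hS.to_le hTS
  have key := Cfsg.Agent.Lib.Helper87.FSAlperin.alperin_induction hTp E c.hEsat
    (mixSys E c.D hTS) ?_
  · intro P φ hφ
    exact (key P hφ).2
  intro Y hfa hrec IH α hα hr
  show α ∈ E.Hom Y ∧ α ∈ c.D.Hom Y
  refine ⟨hα, ?_⟩
  by_cases hc : E.IsCentric Y
  · -- the centric case
    have hYT : Y ≤ T := hc.1
    have hαF : α ∈ F.Hom Y := c.hEF Y hα
    obtain ⟨a, ha, φ₀, hφ₀, hαa⟩ := hFrat Y α hαF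
    have hφ₀B := c.D_le_B Y hφ₀
    have hφ₀S : ∀ x : Y, φ₀ x ∈ S := (c.D.le_of_mem hφ₀).2
    have hg : GoodA E K φ₀ := GoodA.congr (hφ₀B.2 Y le_rfl hYT) (fun x => rfl)
    obtain ⟨κ, hκ, e, he, hφκ⟩ := hg
    have heT : ∀ x : Y, e x ∈ T := (E.le_of_mem he).2
    obtain ⟨γ, hγ, hγa⟩ := exists_resT F c.hT ha
    have hQconj : E.IsConj Y e.range := ⟨e, he, rfl⟩
    have hQc : E.IsCentric e.range := isCentric_of_isConj E hc hQconj
    obtain ⟨ι, hι, hιx⟩ := E.inv_mem he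
    have hιY : ∀ y : e.range, ι y ∈ Y := by
      rintro ⟨_, x, rfl⟩
      rw [hιx x]; exact x.2
    have hψ₀ : α.comp (ι.codRestrict Y hιY) ∈ E.Hom e.range := E.comp_mem hι hα hιY
    have hgood : Cfsg.Agent.Lib.Helper88.PResStmt.resAut (γ * κ) e.range hQc.1 ∈
        c.KS.Hom e.range := by
      rw [c.mem_KS_iff]
      refine GoodA.congr (GoodA.of_mem hψ₀) ?_
      rintro ⟨_, x, rfl⟩
      have e1 : (⟨ι ⟨e x, ⟨x, rfl⟩⟩, hιY _⟩ : Y) = x := Subtype.ext (hιx x)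
      have h1 : (⟨((κ ⟨e x, heT x⟩ : T) : Ω), hTS (κ ⟨e x, heT x⟩).2⟩ : S) = ⟨φ₀ x, hφ₀S x⟩ :=
        Subtype.ext (hφκ x (heT x)).symm
      show (((γ * κ) ⟨e x, heT x⟩ : T) : Ω) = α ⟨ι ⟨e x, ⟨x, rfl⟩⟩, hιY _⟩
      calc (((γ * κ) ⟨e x, heT x⟩ : T) : Ω) = ((γ (κ ⟨e x, heT x⟩) : T) : Ω) := rfl
        _ = ((a ⟨((κ ⟨e x, heT x⟩ : T) : Ω), hTS (κ ⟨e x, heT x⟩).2⟩ : S) : Ω) := hγa _
        _ = ((a ⟨φ₀ x, hφ₀S x⟩ : S) : Ω) := by rw [h1]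
        _ = α x := (hαa x (hφ₀S x)).symm
        _ = α ⟨ι ⟨e x, ⟨x, rfl⟩⟩, hιY _⟩ := by rw [e1]
    have hγκ : γ * κ ∈ K := hW (γ * κ) (Subgroup.mul_mem _ hγ (c.hKF hκ)) e.range hQc hgood
    have hγK : γ ∈ K := by
      have := Subgroup.mul_mem K hγκ (Subgroup.inv_mem K hκ)
      simpa using this
    have haD : a ∈ c.D.autGroup S := (hAutD a).mpr ⟨ha, γ, hγK, hγa⟩
    have haD' := (mem_autGroup_iff c.D le_rfl a).mp haD
    exact comp_mem' c.D hφ₀ haD' hφ₀S (fun x => hαa x (hφ₀S x))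
  · -- the non-centric case: extend
    obtain ⟨R, hYR, hlt, α', hα', hext⟩ :=
      Cfsg.Agent.Lib.Helper88.AlpCentric.extends_of_not_centric E hrec hα hr hc
    have hα'D : α' ∈ c.D.Hom R := (IH R hlt hα').2
    exact hom_congr c.D (restrict_mem c.D hα'D hYR) (fun x => (hext x).symm)

end Cfsg.Agent.Lib.Helper51.PCESUB
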