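import Mathlib
import Cfsg.Prelude.Def_PLocal
import Cfsg.Agent.Lib.Helper51.CardSup

set_option autoImplicit false

namespace Cfsg.Agent.Lib.Helper51.Replacement

open scoped commutatorElement
open Cfsg.Agent.Lib.Helper51.CardSup

variable {S : Type*} [Group S]

/-- If the fibers of `f : A → Q` lie in cosets of `K` then `|A| ≤ |Q| * |K|`. -/
theorem card_le_card_mul_of_fibers {Q : Type*} (A K : Subgroup S) [Finite A] [Finite Q] [Finite K]
    (f : A → Q) (h : ∀ a a' : A, f a = f a' → (a : S)⁻¹ * (a' : S) ∈ K) :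
    Nat.card A ≤ Nat.card Q * Nat.card K := by
  classical
  let r : Q → A := fun q => if hq : ∃ a₀ : A, f a₀ = q then Classical.choose hq else 1
  have hr : ∀ a : A, f (r (f a)) = f a := by
    intro a
    have hq : ∃ a₀ : A, f a₀ = f a := ⟨a, rfl⟩
    simp only [r, dif_pos hq]
    exact Classical.choose_spec hq
  let g : A → Q × K := fun a => (f a, ⟨(r (f a) : S)⁻¹ * (a : S), h _ _ (hr a)⟩)
  have hg : Function.Injective g := by
    intro a a' hgg
    have h1 : f a = f a' := congrArg Prod.fst hgg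
    have h2 : (r (f a) : S)⁻¹ * (a : S) = (r (f a') : S)⁻¹ * (a' : S) :=
      congrArg (fun z => (z.2 : S)) hgg
    rw [h1] at h2
    exact Subtype.ext (mul_left_cancel h2)
  calc Nat.card A ≤ Nat.card (Q × K) := Nat.card_le_card_of_injective g hg
    _ = _ := Nat.card_prod _ _

/-- Symmetry of double commutators `[[x,b],k] = [[x,k],b]` for `x` in an abelian normal subgroup
and commuting `b`, `k`. -/
theorem double_commutator_symm (D : Subgroup S) (hDn : D.Normal)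
    (hDc : ∀ d ∈ D, ∀ d' ∈ D, d * d' = d' * d) (x : S) (hx : x ∈ D) (b k : S) (hbk : b * k = k * b) :
    ⁅⁅x, b⁆, k⁆ = ⁅⁅x, k⁆, b⁆ := by
  have hp : b * x⁻¹ * b⁻¹ ∈ D := hDn.conj_mem _ (inv_mem hx) b
  have hq : k * x⁻¹ * k⁻¹ ∈ D := hDn.conj_mem _ (inv_mem hx) k
  have hr : (k * b) * x * (k * b)⁻¹ ∈ D := hDn.conj_mem _ hx (k * b)
  have e1 : ⁅⁅x, b⁆, k⁆ = x * ((b * x⁻¹ * b⁻¹) * ((k * b) * x * (k * b)⁻¹) * (k * x⁻¹ * k⁻¹)) := by
    simp only [commutatorElement_def]; group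
  have e2 : ⁅⁅x, k⁆, b⁆ = x * ((k * x⁻¹ * k⁻¹) * ((b * k) * x * (b * k)⁻¹) * (b * x⁻¹ * b⁻¹)) := by
    simp only [commutatorElement_def]; group
  rw [e1, e2, hbk]
  have h3 : (b * x⁻¹ * b⁻¹) * ((k * b) * x * (k * b)⁻¹) * (k * x⁻¹ * k⁻¹)
      = (k * x⁻¹ * k⁻¹) * ((k * b) * x * (k * b)⁻¹) * (b * x⁻¹ * b⁻¹) := by
    calc (b * x⁻¹ * b⁻¹) * ((k * b) * x * (k * b)⁻¹) * (k * x⁻¹ * k⁻¹)
        = (k * x⁻¹ * k⁻¹) * ((b * x⁻¹ * b⁻¹) * ((k * b) * x * (k * b)⁻¹)) :=
          hDc _ (mul_mem hp hr) _ hq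
      _ = (k * x⁻¹ * k⁻¹) * (((k * b) * x * (k * b)⁻¹) * (b * x⁻¹ * b⁻¹)) := by
          rw [hDc _ hp _ hr]
      _ = _ := (mul_assoc _ _ _).symm
  rw [h3]

/-- Thompson's replacement theorem for an abelian normal subgroup `D` of a finite nilpotent group:
if `A` is abelian of maximal order and `D` does not normalize `A`, there is an abelian subgroup
`A*` of maximal order with `A ∩ D < A* ∩ D`, normalizing `A` and inside the normal closure of `A`. -/
theorem thompson_replacement [Finite S] [Group.IsNilpotent S] (D : Subgroup S) (hDn : D.Normal)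
    (hDc : IsMulCommutative D) (A : Subgroup S) (hA : A ∈ Cfsg.maxAbelianSubgroups S)
    (hDA : ¬ D ≤ Subgroup.normalizer (A : Set S)) :
    ∃ Astar ∈ Cfsg.maxAbelianSubgroups S, A ⊓ D < Astar ⊓ D ∧
      Astar ≤ Subgroup.normalizer (A : Set S) ∧ Astar ≤ Subgroup.normalClosure (A : Set S) := by
  classical
  have hDel : ∀ d ∈ D, ∀ d' ∈ D, d * d' = d' * d := isMulCommutative_iff_of_setLike.1 hDc
  have hAel : ∀ a ∈ A, ∀ a' ∈ A, a * a' = a' * a := isMulCommutative_iff_of_setLike.1 hA.1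
  -- Step 1: choose x
  obtain ⟨n, hn⟩ := Group.IsNilpotent.nilpotent S
  have hex : ∃ i : ℕ, ¬ (D ⊓ Subgroup.upperCentralSeries S i ≤ Subgroup.normalizer (A : Set S)) :=
    ⟨n, by rw [hn, inf_top_eq]; exact hDA⟩
  have hi := Nat.find_spec hex
  have hmin := fun j => Nat.find_min hex (m := j)
  rcases Nat.eq_zero_or_pos (Nat.find hex) with h0 | hpos
  · rw [h0, Subgroup.upperCentralSeries_zero, inf_bot_eq] at hi
    exact absurd bot_le hi
  obtain ⟨j, hj⟩ : ∃ j, Nat.find hex = j + 1 := ⟨Nat.find hex - 1, by omega⟩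
  have hjle : D ⊓ Subgroup.upperCentralSeries S j ≤ Subgroup.normalizer (A : Set S) := by
    have := hmin j (by omega)
    exact not_not.1 this
  rw [hj] at hi
  obtain ⟨x, hx, hxN⟩ := SetLike.not_le_iff_exists.1 hi
  have hxD : x ∈ D := hx.1
  have hxZ : x ∈ Subgroup.upperCentralSeries S (j + 1) := hx.2
  have hcD : ∀ s : S, ⁅x, s⁆ ∈ D := by
    intro s
    have e : ⁅x, s⁆ = x * (s * x⁻¹ * s⁻¹) := by simp only [commutatorElement_def]; group
    rw [e]
    exact mul_mem hxD (hDn.conj_mem _ (inv_mem hxD) s)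
  have hcN : ∀ s : S, ⁅x, s⁆ ∈ Subgroup.normalizer (A : Set S) := fun s =>
    hjle ⟨hcD s, Subgroup.mem_upperCentralSeries_succ_iff.1 hxZ s⟩
  -- Step 2: M
  obtain ⟨gens, hgens⟩ : ∃ gens : Set S, gens = {m | ∃ a ∈ A, m = ⁅x, a⁆} := ⟨_, rfl⟩
  obtain ⟨M, hM⟩ : ∃ M : Subgroup S, M = Subgroup.closure gens := ⟨_, rfl⟩
  have hgM : ∀ a ∈ A, ⁅x, a⁆ ∈ M := by
    intro a ha
    rw [hM]
    exact Subgroup.subset_closure (by rw [hgens]; exact ⟨a, ha, rfl⟩)
  have hMD : M ≤ D := by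
    rw [hM, Subgroup.closure_le]
    intro m hm
    rw [hgens] at hm
    obtain ⟨a, _, rfl⟩ := hm
    exact hcD a
  have hMN : M ≤ Subgroup.normalizer (A : Set S) := by
    rw [hM, Subgroup.closure_le]
    intro m hm
    rw [hgens] at hm
    obtain ⟨a, _, rfl⟩ := hm
    exact hcN a
  -- Step 3: C and Astar
  obtain ⟨C, hC⟩ : ∃ C : Subgroup S, C = A ⊓ Subgroup.centralizer (M : Set S) := ⟨_, rfl⟩
  have hCA : C ≤ A := by rw [hC]; exact inf_le_left
  have hCM : ∀ c ∈ C, ∀ m ∈ M, m * c = c * m := by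
    intro c hc m hm
    rw [hC] at hc
    exact (Subgroup.mem_centralizer_iff.1 hc.2) m hm
  have hcomm : IsMulCommutative ↥(M ⊔ C) := by
    have hcl : M ⊔ C = Subgroup.closure ((M : Set S) ∪ (C : Set S)) := by
      rw [Subgroup.closure_union, Subgroup.closure_eq, Subgroup.closure_eq]
    rw [hcl]
    apply Subgroup.isMulCommutative_closure
    intro s hs t ht
    rcases hs with hs | hs <;> rcases ht with ht | ht
    · exact hDel s (hMD hs) t (hMD ht)
    · exact hCM t ht s hs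
    · exact (hCM s hs t ht).symm
    · exact hAel s (hCA hs) t (hCA ht)
  have hnorm : M ⊔ C ≤ Subgroup.normalizer (A : Set S) :=
    sup_le hMN (hCA.trans Subgroup.le_normalizer)
  have hncl : M ⊔ C ≤ Subgroup.normalClosure (A : Set S) := by
    refine sup_le ?_ (hCA.trans Subgroup.le_normalClosure)
    rw [hM, Subgroup.closure_le]
    intro m hm
    rw [hgens] at hm
    obtain ⟨a, ha, rfl⟩ := hm
    have e : ⁅x, a⁆ = (x * a * x⁻¹) * a⁻¹ := by simp only [commutatorElement_def]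
    rw [e]
    have haN : a ∈ Subgroup.normalClosure (A : Set S) := Subgroup.le_normalClosure ha
    exact mul_mem (Subgroup.normalClosure_normal.conj_mem a haN x) (inv_mem haN)
  -- Step 7: strictness
  have hADC : A ⊓ D ≤ C := by
    intro z hz
    rw [hC]
    refine Subgroup.mem_inf.2 ⟨hz.1, ?_⟩
    rw [Subgroup.mem_centralizer_iff]
    intro m hm
    exact hDel m (hMD hm) z hz.2
  have hle : A ⊓ D ≤ (M ⊔ C) ⊓ D := le_inf (hADC.trans le_sup_right) inf_le_right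
  have hexa : ∃ a ∈ A, ⁅x, a⁆ ∉ A := by
    by_contra hcon0
    have hcon : ∀ a ∈ A, ⁅x, a⁆ ∈ A := fun a ha => by_contra (fun h => hcon0 ⟨a, ha, h⟩)
    apply hxN
    rw [Subgroup.mem_normalizer_iff_map_conj_eq]
    have hle' : A.map (MulAut.conj x).toMonoidHom ≤ A := by
      rintro _ ⟨a, ha, rfl⟩
      have e : (MulAut.conj x).toMonoidHom a = ⁅x, a⁆ * a := by
        simp only [commutatorElement_def, MulEquiv.toMonoidHom_eq_coe, MonoidHom.coe_coe,
          MulAut.conj_apply]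
        group
      rw [e]
      exact mul_mem (hcon a ha) ha
    exact Subgroup.eq_of_le_of_card_ge hle'
      (le_of_eq (Subgroup.card_map_of_injective (MulAut.conj x).injective).symm)
  obtain ⟨a₀, ha₀, hm₀⟩ := hexa
  have hlt : A ⊓ D < (M ⊔ C) ⊓ D := by
    refine lt_of_le_of_ne hle ?_
    intro heq
    have : ⁅x, a₀⁆ ∈ (M ⊔ C) ⊓ D := ⟨(le_sup_left : M ≤ M ⊔ C) (hgM a₀ ha₀), hcD a₀⟩
    rw [← heq] at this
    exact hm₀ this.1
  -- Step 8: counting
  let ψ : A → ↥M ⧸ (A.subgroupOf M) := fun a =>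
    QuotientGroup.mk (⟨⁅x, (a : S)⁆, hgM a a.2⟩ : ↥M)
  have hψ : ∀ a a' : A, ψ a = ψ a' → (a : S)⁻¹ * (a' : S) ∈ C := by
    intro a a' hab
    have h1 := QuotientGroup.eq.1 hab
    rw [Subgroup.mem_subgroupOf] at h1
    have h1' : (⁅x, (a : S)⁆)⁻¹ * ⁅x, (a' : S)⁆ ∈ A := by simpa using h1
    have hk : (a : S)⁻¹ * (a' : S) ∈ A := mul_mem (inv_mem a.2) a'.2
    have e : (⁅x, (a : S)⁆)⁻¹ * ⁅x, (a' : S)⁆
        = (a : S) * ⁅x, (a : S)⁻¹ * (a' : S)⁆ * (a : S)⁻¹ := by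
      simp only [commutatorElement_def]; group
    rw [e] at h1'
    have hu : ⁅x, (a : S)⁻¹ * (a' : S)⁆ ∈ A := by
      have := mul_mem (mul_mem (inv_mem a.2) h1') a.2
      have e2 : (a : S)⁻¹ * ((a : S) * ⁅x, (a : S)⁻¹ * (a' : S)⁆ * (a : S)⁻¹) * (a : S)
          = ⁅x, (a : S)⁻¹ * (a' : S)⁆ := by group
      rwa [e2] at this
    rw [hC]
    refine Subgroup.mem_inf.2 ⟨hk, ?_⟩
    rw [hM, Subgroup.centralizer_closure, Subgroup.mem_centralizer_iff]
    intro m hm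
    rw [hgens] at hm
    obtain ⟨b, hb, rfl⟩ := hm
    have hbk : b * ((a : S)⁻¹ * (a' : S)) = ((a : S)⁻¹ * (a' : S)) * b := hAel b hb _ hk
    have h3 := double_commutator_symm D hDn hDel x hxD b _ hbk
    have h4 : ⁅⁅x, (a : S)⁻¹ * (a' : S)⁆, b⁆ = 1 := by
      rw [commutatorElement_eq_one_iff_commute]
      exact hAel _ hu b hb
    rw [h4, commutatorElement_eq_one_iff_commute] at h3
    exact h3
  have hcount := card_le_card_mul_of_fibers A C ψ hψ
  have hQ : Nat.card (↥M ⧸ (A.subgroupOf M)) = A.relIndex M := rfl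
  rw [hQ] at hcount
  have hrel : Nat.card (A ⊓ M : Subgroup S) * A.relIndex M = Nat.card M := by
    have := card_mul_relIndex (inf_le_right : A ⊓ M ≤ M)
    rwa [Subgroup.inf_relIndex_right] at this
  have hsup := card_mul_card_le M C
  have hinf : Nat.card (M ⊓ C : Subgroup S) ≤ Nat.card (A ⊓ M : Subgroup S) :=
    Subgroup.card_le_of_le (le_inf (inf_le_right.trans hCA) inf_le_left)
  have hpos : 0 < Nat.card (A ⊓ M : Subgroup S) := Nat.card_pos
  have hcard : Nat.card A ≤ Nat.card (M ⊔ C : Subgroup S) := by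
    refine Nat.le_of_mul_le_mul_right ?_ hpos
    calc Nat.card A * Nat.card (A ⊓ M : Subgroup S)
        ≤ (A.relIndex M * Nat.card C) * Nat.card (A ⊓ M : Subgroup S) :=
          Nat.mul_le_mul_right _ hcount
      _ = (Nat.card (A ⊓ M : Subgroup S) * A.relIndex M) * Nat.card C := by ring
      _ = Nat.card M * Nat.card C := by rw [hrel]
      _ ≤ Nat.card (M ⊔ C : Subgroup S) * Nat.card (M ⊓ C : Subgroup S) := hsup
      _ ≤ Nat.card (M ⊔ C : Subgroup S) * Nat.card (A ⊓ M : Subgroup S) :=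
          Nat.mul_le_mul_left _ hinf
  exact ⟨M ⊔ C, ⟨hcomm, fun B hB => (hA.2 B hB).trans hcard⟩, hlt, hnorm, hncl⟩

end Cfsg.Agent.Lib.Helper51.Replacement
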