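import Mathlib
import Cfsg.Agent.Lib.Helper96.SylAltBasic

/-!
# S2221 piece EB: an even element supported on the orbit of `c` not commuting with `τ τ'`
-/

set_option autoImplicit false

namespace Cfsg.Agent.Lib.Helper51.SAEB

open Equiv Cfsg.Agent.Lib.Lead.SylTwoSym Cfsg.Agent.Lib.Helper96.SylAltStmt
  Cfsg.Agent.Lib.Helper96.SylAltBasic

theorem main : Cfsg.Agent.Lib.Helper96.SylAltStmt.EB' := by
  intro hSplit Ω _ _ S hS c τ τ' hτ hτc hncen hτ' hfix
  have hP : IsPGroup 2 S := hS.1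
  set O : Set Ω := {a | ∃ s ∈ S, s c = a} with hO
  have hInv : Inv S O := inv_orbit S c
  have hcO : c ∈ O := ⟨1, S.one_mem, rfl⟩
  -- a conjugate of `τ` different from `τ`
  have h1 : ∃ s ∈ S, s * τ * s⁻¹ ≠ τ := by
    by_contra hcon
    apply hncen
    intro s hs
    have h2 : s * τ * s⁻¹ = τ := by
      by_contra h3
      exact hcon ⟨s, hs, h3⟩
    calc τ * s = (s * τ * s⁻¹) * s := by rw [h2]
      _ = s * τ := by group
  obtain ⟨s, hs, hsτ⟩ := h1
  set ρ := s * τ * s⁻¹ with hρ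
  have hρS : ρ ∈ swapsIn S := conj_mem_swapsIn hτ hs
  set d := s c with hd
  have hdO : d ∈ O := ⟨s, hs, rfl⟩
  have hρd : ρ d ≠ d := by
    rw [hρ, hd]
    simp only [Perm.mul_apply]
    intro h
    have h' : s⁻¹ (s c) = c := by simp
    rw [h'] at h
    exact hτc (s.injective h)
  -- `τ` fixes `d`, `ρ` fixes `c`
  have hτd : τ d = d := by
    by_contra h
    exact hsτ (eq_of_moves hP hρS hτ hρd h)
  have hρc : ρ c = c := by
    by_contra h
    exact hsτ (eq_of_moves hP hρS hτ h hτc)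
  obtain ⟨u, hu, v, hv, huO, hvO, hsuv⟩ := hSplit Ω S hS O hInv s hs
  have huc : u c = d := by
    rw [hd, hsuv, Perm.mul_apply, hvO c hcO]
  have hρO : SupOn ρ O := supOn_of_swap_moves hInv hρS hdO hρd
  -- the even element `e` with `e c = d`
  obtain ⟨e, he, heO, hec⟩ : ∃ e ∈ ev S, SupOn e O ∧ e c = d := by
    rcases Int.units_eq_one_or (Perm.sign u) with hsgn | hsgn
    · exact ⟨u, mem_ev.mpr ⟨hu, hsgn⟩, huO, huc⟩
    · refine ⟨u * ρ, mem_ev.mpr ⟨S.mul_mem hu hρS.1, ?_⟩, ?_, ?_⟩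
      · rw [map_mul, hsgn, sign_of_mem_swapsIn hρS]
        rfl
      · intro a ha
        rw [Perm.mul_apply, hρO a ha, huO a ha]
      · rw [Perm.mul_apply, hρc, huc]
  refine ⟨e, he, heO, τ * τ', mem_ev.mpr ⟨S.mul_mem hτ.1 hτ'.1, ?_⟩, ?_⟩
  · rw [map_mul, sign_of_mem_swapsIn hτ, sign_of_mem_swapsIn hτ']
    rfl
  · intro hcomm
    have h2 : e * τ' = τ' * e := commute_of_supOn_fixOn heO hfix
    have h3 : e * τ = τ * e := by
      have h4 : e * τ * τ' = τ * e * τ' := by
        calc e * τ * τ' = e * (τ * τ') := by group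
          _ = τ * τ' * e := hcomm
          _ = τ * (τ' * e) := by group
          _ = τ * (e * τ') := by rw [h2]
          _ = τ * e * τ' := by group
      exact mul_right_cancel h4
    have h5 := congrArg (fun σ : Perm Ω => σ c) h3
    simp only [Perm.mul_apply] at h5
    rw [hec, hτd, ← hec] at h5
    exact hτc (e.injective h5)

end Cfsg.Agent.Lib.Helper51.SAEB
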