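import Mathlib
import Cfsg.Agent.Lib.Helper43.SPStmt
import Cfsg.Agent.Lib.Helper40.NormSurj

set_option autoImplicit false

/-! S2720 piece TORUS: the torus `N = {t | st t * t = 1}` of a commutative ring with an involution
whose fixed elements are `0` or units has a cyclic Sylow 2-subgroup. -/

namespace Cfsg.Agent.Lib.Helper51.SPTORUS

universe u

/-- In a finite abelian group with at most one involution `z`, at most `2 ^ v` elements have
order dividing `2 ^ v`. -/
theorem card_pow_le {G : Type u} [CommGroup G] [Finite G] (z : G)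
    (hinv : ∀ t : G, t ^ 2 = 1 → t = 1 ∨ t = z) :
    ∀ v : ℕ, Nat.card {t : G // t ^ (2 ^ v) = 1} ≤ 2 ^ v := by
  classical
  intro v
  induction v with
  | zero =>
    have : Subsingleton {t : G // t ^ (2 ^ 0) = 1} := by
      constructor
      rintro ⟨a, ha⟩ ⟨b, hb⟩
      apply Subtype.ext
      simp only [pow_zero, pow_one] at ha hb
      show a = b
      rw [ha, hb]
    rw [pow_zero]
    exact Finite.card_le_one_iff_subsingleton.2 this
  | succ v ih =>
    have key : ∀ t : G, t ^ (2 ^ (v + 1)) = 1 → t ^ (2 ^ v) = 1 ∨ t ^ (2 ^ v) = z := by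
      intro t ht
      apply hinv
      rw [← pow_mul, ← pow_succ]
      exact ht
    by_cases hw : ∃ w : G, w ^ (2 ^ v) = z
    · obtain ⟨w, hw⟩ := hw
      have hpf : ∀ t : {t : G // t ^ (2 ^ (v + 1)) = 1}, ¬ t.1 ^ (2 ^ v) = 1 →
          (t.1 * w⁻¹) ^ (2 ^ v) = 1 := by
        intro t ht
        rcases key t.1 t.2 with h | h
        · exact absurd h ht
        · rw [mul_pow, inv_pow, hw, h, mul_inv_cancel]
      let f : {t : G // t ^ (2 ^ (v + 1)) = 1} → Bool × {t : G // t ^ (2 ^ v) = 1} :=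
        fun t => if h : t.1 ^ (2 ^ v) = 1 then (false, ⟨t.1, h⟩)
          else (true, ⟨t.1 * w⁻¹, hpf t h⟩)
      have hf : Function.Injective f := by
        intro s t hst
        simp only [f] at hst
        by_cases hs : s.1 ^ (2 ^ v) = 1
        · by_cases ht : t.1 ^ (2 ^ v) = 1
          · rw [dif_pos hs, dif_pos ht] at hst
            have := congrArg (fun p => (p.2 : G)) hst
            exact Subtype.ext this
          · rw [dif_pos hs, dif_neg ht] at hst
            have := congrArg Prod.fst hst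
            simp at this
        · by_cases ht : t.1 ^ (2 ^ v) = 1
          · rw [dif_neg hs, dif_pos ht] at hst
            have := congrArg Prod.fst hst
            simp at this
          · rw [dif_neg hs, dif_neg ht] at hst
            have := congrArg (fun p => (p.2 : G)) hst
            exact Subtype.ext (mul_right_cancel this)
      calc Nat.card {t : G // t ^ (2 ^ (v + 1)) = 1}
          ≤ Nat.card (Bool × {t : G // t ^ (2 ^ v) = 1}) := Nat.card_le_card_of_injective f hf
        _ = 2 * Nat.card {t : G // t ^ (2 ^ v) = 1} := by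
            rw [Nat.card_prod, Nat.card_eq_fintype_card, Fintype.card_bool]
        _ ≤ 2 * 2 ^ v := Nat.mul_le_mul_left 2 ih
        _ = 2 ^ (v + 1) := by rw [pow_succ, mul_comm]
    · have hall : ∀ t : G, t ^ (2 ^ (v + 1)) = 1 → t ^ (2 ^ v) = 1 := by
        intro t ht
        rcases key t ht with h | h
        · exact h
        · exact absurd ⟨t, h⟩ hw
      let f : {t : G // t ^ (2 ^ (v + 1)) = 1} → {t : G // t ^ (2 ^ v) = 1} :=
        fun t => ⟨t.1, hall t.1 t.2⟩
      have hf : Function.Injective f := by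
        intro s t hst
        have h := congrArg Subtype.val hst
        exact Subtype.ext h
      calc Nat.card {t : G // t ^ (2 ^ (v + 1)) = 1}
          ≤ Nat.card {t : G // t ^ (2 ^ v) = 1} := Nat.card_le_card_of_injective f hf
        _ ≤ 2 ^ v := ih
        _ ≤ 2 ^ (v + 1) := Nat.pow_le_pow_right (by norm_num) (Nat.le_succ v)

/-- A finite abelian group with a unique involution `z` has an element `g` with
`g ^ (2 ^ a) = z`, where `2 ^ (a + 1)` is the 2-part of the order. -/
theorem exists_gen {G : Type u} [CommGroup G] [Finite G] (z : G) (hz1 : z ≠ 1) (hz2 : z ^ 2 = 1)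
    (hinv : ∀ t : G, t ^ 2 = 1 → t = 1 ∨ t = z) :
    ∃ (g : G) (a : ℕ), g ^ (2 ^ a) = z ∧ 2 ^ (a + 1) ∣ Nat.card G ∧
      Odd (Nat.card G / 2 ^ (a + 1)) := by
  classical
  haveI : Fact (Nat.Prime 2) := ⟨Nat.prime_two⟩
  have hcard : Nat.card G ≠ 0 := Nat.card_pos.ne'
  obtain ⟨m, hm⟩ : ∃ m, m = (Nat.card G).factorization 2 := ⟨_, rfl⟩
  have h2dvd : 2 ∣ Nat.card G := by
    have : orderOf z = 2 := orderOf_eq_prime hz2 hz1
    rw [← this]
    exact orderOf_dvd_natCard z
  have hm1 : 1 ≤ m := by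
    rw [hm]
    exact (Nat.Prime.factorization_pos_of_dvd Nat.prime_two hcard h2dvd)
  have hdvd : 2 ^ m ∣ Nat.card G := by
    rw [hm]; exact Nat.ordProj_dvd _ _
  obtain ⟨P, hP⟩ := Sylow.exists_subgroup_card_pow_prime 2 hdvd
  have hex : ∃ g ∈ P, g ^ (2 ^ (m - 1)) ≠ 1 := by
    by_contra hcon
    have hall : ∀ g ∈ P, g ^ (2 ^ (m - 1)) = 1 := by
      intro g hg
      by_contra h
      exact hcon ⟨g, hg, h⟩
    let f : ↥P → {t : G // t ^ (2 ^ (m - 1)) = 1} := fun g => ⟨g.1, hall g.1 g.2⟩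
    have hf : Function.Injective f := by
      intro s t hst
      have h := congrArg Subtype.val hst
      exact Subtype.ext h
    have h1 := Nat.card_le_card_of_injective f hf
    have h2 := card_pow_le z hinv (m - 1)
    rw [hP] at h1
    have h3 : 2 ^ (m - 1) < 2 ^ m := Nat.pow_lt_pow_right (by norm_num) (by omega)
    omega
  obtain ⟨g, hgP, hg⟩ := hex
  have hgm : g ^ (2 ^ m) = 1 := by
    have := pow_card_eq_one' (G := ↥P) (x := ⟨g, hgP⟩)
    rw [hP] at this
    exact congrArg Subtype.val this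
  have hgz : g ^ (2 ^ (m - 1)) = z := by
    have h2 : (g ^ (2 ^ (m - 1))) ^ 2 = 1 := by
      rw [← pow_mul, ← pow_succ, Nat.sub_add_cancel hm1]
      exact hgm
    rcases hinv _ h2 with h | h
    · exact absurd h hg
    · exact h
  refine ⟨g, m - 1, hgz, ?_, ?_⟩
  · rw [Nat.sub_add_cancel hm1]; exact hdvd
  · rw [Nat.sub_add_cancel hm1, hm]
    have := Nat.not_dvd_ordCompl Nat.prime_two hcard
    exact Nat.odd_iff.2 (Nat.two_dvd_ne_zero.1 this)

/-- The commutative form. -/
theorem torus_comm {R : Type u} [CommRing R] [Finite R] (σ : R →+* R) (hσ : ∀ x, σ (σ x) = x)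
    (hfix : ∀ b : R, σ b = b → b = 0 ∨ IsUnit b) (hneg : (-1 : R) ≠ 1)
    (θ : R) (hθ : IsUnit (θ - σ θ)) :
    ∃ (g c : R), IsUnit c ∧ g * σ c = c ∧ σ g * g = 1 ∧ ∃ a : ℕ, g ^ (2 ^ a) = -1 ∧
      2 ^ (a + 1) ∣ Nat.card {t : R // σ t * t = 1} ∧
      Odd (Nat.card {t : R // σ t * t = 1} / 2 ^ (a + 1)) := by
  classical
  obtain ⟨σ', hσ'⟩ : ∃ σ' : Rˣ →* Rˣ, ∀ x : Rˣ, (σ' x : R) = σ x :=
    ⟨Units.map σ.toMonoidHom, fun x => rfl⟩
  obtain ⟨Nm, hNm⟩ : ∃ Nm : Rˣ →* Rˣ, ∀ x, Nm x = σ' x * x :=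
    ⟨σ' * (MonoidHom.id Rˣ), fun x => rfl⟩
  have hmem : ∀ u : Rˣ, u ∈ Nm.ker ↔ σ (u : R) * (u : R) = 1 := by
    intro u
    rw [MonoidHom.mem_ker, hNm, Units.ext_iff, Units.val_mul, hσ', Units.val_one]
  have hzmem : (-1 : Rˣ) ∈ Nm.ker := by
    rw [hmem, Units.val_neg, Units.val_one, map_neg, map_one]
    ring
  obtain ⟨z, hz⟩ : ∃ z : ↥Nm.ker, (z : Rˣ) = -1 := ⟨⟨-1, hzmem⟩, rfl⟩
  have hz1 : z ≠ 1 := by
    intro h
    have h1 : ((z : Rˣ) : R) = ((1 : ↥Nm.ker) : Rˣ) := by rw [h]
    rw [hz, Units.val_neg, Units.val_one, Subgroup.coe_one, Units.val_one] at h1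
    exact hneg h1
  have hz2 : z ^ 2 = 1 := by
    apply Subtype.ext
    rw [Subgroup.coe_pow, hz, Subgroup.coe_one]
    apply Units.ext
    rw [Units.val_pow_eq_pow_val, Units.val_neg, Units.val_one]
    ring
  have hinv : ∀ t : ↥Nm.ker, t ^ 2 = 1 → t = 1 ∨ t = z := by
    intro t ht
    have h1 : ((t : Rˣ) : R) * ((t : Rˣ) : R) = 1 := by
      have := congrArg (fun x : ↥Nm.ker => ((x : Rˣ) : R)) ht
      simp only [Subgroup.coe_pow, Units.val_pow_eq_pow_val, Subgroup.coe_one,
        Units.val_one] at this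
      rw [← this]; ring
    have h2 : σ ((t : Rˣ) : R) * ((t : Rˣ) : R) = 1 := (hmem _).1 t.2
    have h3 : σ ((t : Rˣ) : R) = ((t : Rˣ) : R) := by
      calc σ ((t : Rˣ) : R) = σ ((t : Rˣ) : R) * (((t : Rˣ) : R) * ((t : Rˣ) : R)) := by
            rw [h1, mul_one]
        _ = (σ ((t : Rˣ) : R) * ((t : Rˣ) : R)) * ((t : Rˣ) : R) := by ring
        _ = ((t : Rˣ) : R) := by rw [h2, one_mul]
    have h4 : σ (1 + ((t : Rˣ) : R)) = 1 + ((t : Rˣ) : R) := by
      rw [map_add, map_one, h3]
    rcases hfix _ h4 with h5 | h5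
    · right
      apply Subtype.ext
      rw [hz]
      apply Units.ext
      rw [Units.val_neg, Units.val_one]
      linear_combination h5
    · left
      apply Subtype.ext
      rw [Subgroup.coe_one]
      apply Units.ext
      rw [Units.val_one]
      have h6 : (1 + ((t : Rˣ) : R)) * (1 - ((t : Rˣ) : R)) = 0 := by
        linear_combination -h1
      have h7 := (h5.mul_right_eq_zero).1 h6
      linear_combination -h7
  obtain ⟨g, a, hga, hdiv, hodd⟩ := exists_gen z hz1 hz2 hinv
  have hgN : σ ((g : Rˣ) : R) * ((g : Rˣ) : R) = 1 := (hmem _).1 g.2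
  obtain ⟨c, hcu, hc⟩ := Cfsg.Agent.Lib.Helper40.NormSurj.hilbert90 σ hσ θ hθ ((g : Rˣ) : R)
    (by rw [mul_comm]; exact hgN)
  have hcard : Nat.card {t : R // σ t * t = 1} = Nat.card ↥Nm.ker := by
    let f : ↥Nm.ker → {t : R // σ t * t = 1} := fun u => ⟨((u : Rˣ) : R), (hmem _).1 u.2⟩
    have hf : Function.Bijective f := by
      constructor
      · intro s t hst
        have : ((s : Rˣ) : R) = ((t : Rˣ) : R) := congrArg Subtype.val hst
        exact Subtype.ext (Units.ext this)
      · rintro ⟨t, ht⟩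
        have ht' : t * σ t = 1 := by rw [mul_comm]; exact ht
        refine ⟨⟨Units.mkOfMulEqOne t (σ t) ht', ?_⟩, ?_⟩
        · rw [hmem, Units.val_mkOfMulEqOne]
          exact ht
        · apply Subtype.ext
          show ((Units.mkOfMulEqOne t (σ t) ht' : Rˣ) : R) = t
          rw [Units.val_mkOfMulEqOne]
    exact (Nat.card_congr (Equiv.ofBijective f hf)).symm
  refine ⟨((g : Rˣ) : R), c, hcu, hc.symm, hgN, a, ?_, ?_, ?_⟩
  · have := congrArg (fun x : ↥Nm.ker => ((x : Rˣ) : R)) hga
    simp only [Subgroup.coe_pow, Units.val_pow_eq_pow_val] at this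
    rw [this, hz, Units.val_neg, Units.val_one]
  · rw [hcard]; exact hdiv
  · rw [hcard]; exact hodd

theorem main : Cfsg.Agent.Lib.Helper43.SPStmt.Torus.{u} := by
  intro E _ _ st h_add h_mul h_one h_inv S₀ hcomm hstar hfix h2 h10 hθ
  classical
  obtain ⟨θ, hθR, hθu⟩ := hθ
  have h_zero : st 0 = 0 := by
    have h := h_add 0 0
    rw [add_zero] at h
    exact left_eq_add.mp h
  have h_neg : ∀ x, st (-x) = -st x := by
    intro x
    have h := h_add x (-x)
    rw [add_neg_cancel, h_zero] at h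
    exact (neg_eq_of_add_eq_zero_right h.symm).symm
  have hcl : ∀ x ∈ Subring.closure S₀, st x ∈ Subring.closure S₀ := by
    intro x hx
    induction hx using Subring.closure_induction with
    | mem x hx => exact Subring.subset_closure (hstar x hx)
    | zero => rw [h_zero]; exact zero_mem _
    | one => rw [h_one]; exact one_mem _
    | add x y _ _ hx hy => rw [h_add]; exact add_mem hx hy
    | neg x _ hx => rw [h_neg]; exact neg_mem hx
    | mul x y _ _ hx hy => rw [h_mul]; exact mul_mem hy hx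
  letI : CommRing ↥(Subring.closure S₀) := Subring.closureCommRingOfComm hcomm
  have hcommS : ∀ x ∈ Subring.closure S₀, ∀ y ∈ Subring.closure S₀, x * y = y * x := by
    intro x hx y hy
    exact congrArg Subtype.val (mul_comm (⟨x, hx⟩ : ↥(Subring.closure S₀)) ⟨y, hy⟩)
  obtain ⟨σ, hσ⟩ : ∃ σ : ↥(Subring.closure S₀) →+* ↥(Subring.closure S₀),
      ∀ x, (σ x).1 = st x.1 :=
    ⟨{ toFun := fun x => ⟨st x.1, hcl x.1 x.2⟩
       map_one' := Subtype.ext h_one
       map_mul' := fun x y => Subtype.ext (by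
         show st (x.1 * y.1) = st x.1 * st y.1
         rw [h_mul]
         exact hcommS _ (hcl y.1 y.2) _ (hcl x.1 x.2))
       map_zero' := Subtype.ext h_zero
       map_add' := fun x y => Subtype.ext (h_add x.1 y.1) }, fun x => rfl⟩
  have hσσ : ∀ x, σ (σ x) = x := fun x => Subtype.ext (by rw [hσ, hσ, h_inv])
  have hunit : ∀ (a : E) (ha : a ∈ Subring.closure S₀), IsUnit a →
      IsUnit (⟨a, ha⟩ : ↥(Subring.closure S₀)) := by
    intro a ha hau
    have hinj : Function.Injective
        (fun s : ↥(Subring.closure S₀) => (⟨a, ha⟩ : ↥(Subring.closure S₀)) * s) := by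
      intro s s' hss
      have h1 : a * s.1 = a * s'.1 := congrArg Subtype.val hss
      exact Subtype.ext (hau.mul_left_cancel h1)
    obtain ⟨w, hw⟩ := (Finite.injective_iff_surjective.mp hinj) 1
    exact IsUnit.of_mul_eq_one w hw
  have hfix' : ∀ b : ↥(Subring.closure S₀), σ b = b → b = 0 ∨ IsUnit b := by
    intro b hb
    have h1 : st b.1 = b.1 := by rw [← hσ, hb]
    rcases hfix b.1 b.2 h1 with h | h
    · left; exact Subtype.ext h
    · right; exact hunit b.1 b.2 h
  have hneg : (-1 : ↥(Subring.closure S₀)) ≠ 1 := by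
    intro h
    have h1 : (-1 : E) = 1 := congrArg Subtype.val h
    have h3 : (2 : E) = 0 := by
      rw [← one_add_one_eq_two]
      nth_rewrite 1 [← h1]
      exact neg_add_cancel 1
    rw [h3] at h2
    obtain ⟨w, hw⟩ := h2.exists_right_inv
    rw [zero_mul] at hw
    exact h10 hw.symm
  have hθ' : IsUnit ((⟨θ, hθR⟩ : ↥(Subring.closure S₀)) - σ ⟨θ, hθR⟩) := by
    have := hunit (θ - st θ) (sub_mem hθR (hcl θ hθR)) hθu
    convert this using 1
    apply Subtype.ext
    show θ - (σ ⟨θ, hθR⟩).1 = θ - st θ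
    rw [hσ]
  obtain ⟨g, c, hcu, hgc, hgg, a, hga, hdiv, hodd⟩ :=
    torus_comm σ hσσ hfix' hneg ⟨θ, hθR⟩ hθ'
  have hcard : Nat.card {t : E // t ∈ Subring.closure S₀ ∧ st t * t = 1} =
      Nat.card {t : ↥(Subring.closure S₀) // σ t * t = 1} := by
    let f : {t : ↥(Subring.closure S₀) // σ t * t = 1} →
        {t : E // t ∈ Subring.closure S₀ ∧ st t * t = 1} :=
      fun t => ⟨t.1.1, t.1.2, by
        have := congrArg Subtype.val t.2
        rw [← hσ]
        exact this⟩
    have hf : Function.Bijective f := by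
      constructor
      · intro s t hst
        have h := congrArg Subtype.val hst
        exact Subtype.ext (Subtype.ext h)
      · rintro ⟨t, ht, h⟩
        refine ⟨⟨⟨t, ht⟩, Subtype.ext ?_⟩, rfl⟩
        show (σ ⟨t, ht⟩).1 * t = 1
        rw [hσ]
        exact h
    exact (Nat.card_congr (Equiv.ofBijective f hf)).symm
  refine ⟨g.1, g.2, c.1, c.2, ?_, ?_, ?_, a, ?_, ?_, ?_⟩
  · exact hcu.map (Subring.subtype (Subring.closure S₀))
  · have := congrArg Subtype.val hgc
    rw [← hσ]
    exact this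
  · have := congrArg Subtype.val hgg
    rw [← hσ]
    exact this
  · have := congrArg Subtype.val hga
    exact this
  · rw [hcard]; exact hdiv
  · rw [hcard]; exact hodd

end Cfsg.Agent.Lib.Helper51.SPTORUS
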